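/-
Pushing up over dihedral groups, part 1: local analysis.
-/
import Cfsg.Agent.Lib.Glaub.Push2
import Mathlib.GroupTheory.SpecificGroups.Dihedral

set_option autoImplicit false
set_option linter.unusedSectionVars false
set_option linter.style.haveILetI false
set_option maxHeartbeats 400000

namespace Cfsg.Agent.Lib.Glaub

open Subgroup Cfsg.Agent.Lib.Core Cfsg.Agent.Lib.ZJ DihedralGroup
open scoped commutatorElement

variable {G : Type*} [Group G]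

theorem mul_mem_of_relIndex_two {H K : Subgroup G} (h : H.relIndex K = 2) {a b : G} (ha : a ∈ K)
    (hb : b ∈ K) (ha' : a ∉ H) (hb' : b ∉ H) : a * b ∈ H :=
  (mul_mem_iff_of_index_two h (a := ⟨a, ha⟩) (b := ⟨b, hb⟩)).mpr (iff_of_false ha' hb')

theorem odd_of_pCore_dihedral {n : ℕ} (hn : 2 ≤ n) (h : pCore 2 (DihedralGroup n) = ⊥) : Odd n := by
  rcases Nat.even_or_odd n with ⟨m, hm⟩ | ho
  · exfalso
    have e : (m : ZMod n) + m = 0 := by rw [← Nat.cast_add, ← hm, ZMod.natCast_self]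
    have hc : (r m : DihedralGroup n) ∈ center _ := by
      rw [mem_center_iff]
      rintro (i | i)
      · simp [add_comm]
      · simp only [sr_mul_r, r_mul_sr]; congr 1; linear_combination e
    have hn' : (zpowers (r m : DihedralGroup n)).Normal := ⟨fun x hx g => by
      rw [mem_center_iff.mp (zpowers_le.mpr hc hx) g, mul_inv_cancel_right]; exact hx⟩
    have := le_pCore (isPGroup_zpowers (p := 2) (x := (r m : DihedralGroup n)) (k := 1)
      (by rw [pow_one, pow_two, r_mul_r, e, r_zero])) (mem_zpowers _)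
    rw [h, mem_bot, one_def] at this
    have h2 : (m : ZMod n) = 0 := r.inj this
    have := Nat.le_of_dvd (by omega) ((ZMod.natCast_eq_zero_iff m n).mp h2)
    omega
  · exact ho

/-- `G/Q` is dihedral of twice odd order. -/
structure DihQ {n : ℕ} (Q : Subgroup G) (φ : G →* DihedralGroup n) : Prop where
  odd : Odd n
  surj : Function.Surjective φ
  ker : ∀ x, φ x = 1 ↔ x ∈ Q
  isP : IsPGroup 2 Q

namespace DihQ

variable [Finite G] {n : ℕ} {Q T T' : Subgroup G} {φ : G →* DihedralGroup n} (h : DihQ Q φ)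
include h

theorem normal : Q.Normal := ⟨fun x hx g => by
  rw [← h.ker] at hx ⊢; simp [hx]⟩

theorem norm (g : G) : g ∈ 𝐍(Q) := by
  have := h.normal
  exact le_normalizer_of_normal (mem_top g)

theorem le (hT : IsSyl 2 T ⊤) : Q ≤ T :=
  hT.le_of_le_normalizer h.isP le_top fun g _ => h.norm g

theorem pow_mem {x : G} {i : ZMod n} (hx : φ x = r i) : x ^ n ∈ Q := by
  rw [← h.ker, map_pow, hx, r_pow]; simp

theorem two_mul_eq_zero {i : ZMod n} (hi : i + i = 0) : i = 0 := by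
  obtain ⟨m, hm⟩ := h.odd
  have e : (2 * m + 1 : ZMod n) = 0 := by
    have := ZMod.natCast_self n
    rw [hm] at this ⊢; exact_mod_cast this
  linear_combination i * e - m * hi

theorem mem_of_rot (hT : IsPGroup 2 T) {x : G} (hx : x ∈ T) {i : ZMod n} (hi : φ x = r i) :
    x ∈ Q := by
  obtain ⟨k, hk⟩ := pow_eq_one_of_isPGroup hT hx
  have h1 : φ x ^ n = 1 := by rw [← map_pow, h.ker]; exact h.pow_mem hi
  have h2 : φ x ^ 2 ^ k = 1 := by rw [← map_pow, hk, map_one]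
  have := pow_gcd_eq_one.mpr ⟨h1, h2⟩
  rwa [Nat.Coprime.pow_right k (Nat.coprime_two_right.mpr h.odd), pow_one, h.ker] at this

theorem exists_sr (hT : IsPGroup 2 T) {x : G} (hx : x ∈ T) (hxQ : x ∉ Q) : ∃ i, φ x = sr i := by
  rcases e : φ x with i | i
  · exact absurd (h.mem_of_rot hT hx e) hxQ
  · exact ⟨i, rfl⟩

theorem sq_mem {x : G} {i : ZMod n} (hi : φ x = sr i) : x * x ∈ Q := by
  rw [← h.ker, map_mul, hi, sr_mul_self]

theorem not_mem {x : G} {i : ZMod n} (hi : φ x = sr i) : x ∉ Q := by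
  rw [← h.ker, hi, one_def]; exact fun e => DihedralGroup.noConfusion rfl (heq_of_eq e)

theorem mul_mem' (hT : IsPGroup 2 T) {x y : G} (hx : x ∈ T) (hxQ : x ∉ Q) (hy : y ∈ T)
    (hyQ : y ∉ Q) : x * y ∈ Q := by
  obtain ⟨i, hi⟩ := h.exists_sr hT hx hxQ
  obtain ⟨j, hj⟩ := h.exists_sr hT hy hyQ
  exact h.mem_of_rot hT (mul_mem hx hy) (by rw [map_mul, hi, hj, sr_mul_sr])

theorem exists_syl {x : G} {i : ZMod n} (hi : φ x = sr i) : ∃ T, IsSyl 2 T ⊤ ∧ x ∈ T := by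
  obtain ⟨k, hk⟩ := pow_eq_one_of_isPGroup h.isP (h.sq_mem hi)
  obtain ⟨T, h1, h2⟩ := exists_isSyl_ge
    (isPGroup_zpowers (p := 2) (x := x) (k := k + 1) (by rw [pow_succ', pow_mul, pow_two, hk])) le_top
  exact ⟨T, h1, h2 (mem_zpowers x)⟩

theorem conj_not_mem {x : G} (hx : x ∉ Q) (g : G) : g * x * g⁻¹ ∉ Q := fun h1 =>
  hx (by simpa [mul_assoc] using conj_mem_of_mem_normalizer' (h.norm g) h1)

theorem exists_not_mem (hT : IsSyl 2 T ⊤) : ∃ x ∈ T, x ∉ Q := by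
  obtain ⟨x, hx⟩ := h.surj (sr 0)
  obtain ⟨T', hT', hx'⟩ := h.exists_syl hx
  obtain ⟨g, -, rfl⟩ := hT'.exists_conj hT
  exact ⟨_, conj_mem_map_conj.mpr hx', h.conj_not_mem (h.not_mem hx) g⟩

theorem relIndex (hT : IsSyl 2 T ⊤) : Q.relIndex T = 2 := by
  obtain ⟨x, hx, hxQ⟩ := h.exists_not_mem hT
  refine relIndex_eq_two_iff_exists_notMem_and.mpr ⟨x, hx, hxQ, fun b hb => ?_⟩
  by_cases hbQ : b ∈ Q
  · exact Or.inr hbQ
  · exact Or.inl (h.mul_mem' hT.isPGroup hb hbQ hx hxQ)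

theorem normalizer_le (hT : IsSyl 2 T ⊤) : 𝐍(T) ≤ T := by
  obtain ⟨x, hx, hxQ⟩ := h.exists_not_mem hT
  obtain ⟨i, hi⟩ := h.exists_sr hT.isPGroup hx hxQ
  have key : ∀ g ∈ 𝐍(T), ∀ k, φ g = r k → g ∈ T := fun g hg k hk => by
    have h1 := h.mul_mem' hT.isPGroup (conj_mem_of_mem_normalizer hg hx) (h.conj_not_mem hxQ g) hx hxQ
    rw [← h.ker] at h1
    simp only [map_mul, map_inv, hk, hi, inv_r, r_mul_sr, sr_mul_r, sr_mul_sr, one_def,
      r.injEq] at h1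
    refine h.le hT ((h.ker g).mp ?_)
    rw [hk, h.two_mul_eq_zero (i := k) (by linear_combination h1), r_zero]
  intro g hg
  rcases e : φ g with k | k
  · exact key g hg k e
  · have := key (x * g) (mul_mem (le_normalizer hx) hg) _ (by rw [map_mul, hi, e, sr_mul_sr])
    simpa using mul_mem (inv_mem hx) this

theorem eq_top_of {K : Subgroup G} (hQ : Q ≤ K) {x t : G} {i : ZMod n} (hx : x ∈ K)
    (hi : φ x = sr i) (ht : t ∈ K) {u : ZMod n} (hu : IsUnit u) (ht' : φ t = r u) : K = ⊤ := by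
  have : NeZero n := ⟨h.odd.pos.ne'⟩
  have key : ∀ g k, φ g = r k → g ∈ K := fun g k hk => by
    obtain ⟨v, hv⟩ := hu.exists_right_inv
    have : (t ^ (v * k).val)⁻¹ * g ∈ Q := by
      rw [← h.ker, map_mul, map_inv, map_pow, ht', hk, r_pow, ZMod.natCast_zmod_val, ← mul_assoc, hv]
      simp
    simpa using mul_mem (K.pow_mem ht (v * k).val) (hQ this)
  rw [eq_top_iff]
  intro g _
  rcases e : φ g with k | k
  · exact key g k e
  · have := key (x * g) _ (by rw [map_mul, hi, e, sr_mul_sr])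
    simpa using mul_mem (inv_mem hx) this

theorem isUnit_two : IsUnit (2 : ZMod n) := by
  obtain ⟨m, hm⟩ := h.odd
  have e : (2 * m + 1 : ZMod n) = 0 := by
    have := ZMod.natCast_self n
    rw [hm] at this ⊢; exact_mod_cast this
  exact IsUnit.of_mul_eq_one (-m) (by linear_combination -e)

theorem exists_gen : ∃ g : G, ∀ x : G, ∀ i, φ x = sr i → φ (x * (g * x * g⁻¹)) = r (-2) := by
  obtain ⟨g, hg⟩ := h.surj (r 1)
  refine ⟨g, fun x i hi => ?_⟩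
  simp only [map_mul, map_inv, hg, hi, inv_r, r_mul_sr, sr_mul_r, sr_mul_sr]
  congr 1; ring

theorem gen (hT : IsSyl 2 T ⊤) : ∃ T', IsSyl 2 T' ⊤ ∧ ∀ x ∈ T, x ∉ Q → T' ⊔ zpowers x = ⊤ := by
  obtain ⟨g, hg⟩ := h.exists_gen
  have hT' := hT.conj_of_mem_normalizer (le_normalizer (mem_top g))
  refine ⟨_, hT', fun x hx hxQ => ?_⟩
  obtain ⟨i, hi⟩ := h.exists_sr hT.isPGroup hx hxQ
  exact h.eq_top_of ((h.le hT').trans le_sup_left) (mem_sup_right (mem_zpowers x)) hi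
    (mul_mem (mem_sup_right (mem_zpowers x)) (mem_sup_left (conj_mem_map_conj.mpr hx)))
    h.isUnit_two.neg (hg x i hi)

theorem eq_top_of_normal (hT : IsSyl 2 T ⊤) {K : Subgroup G} [hK : K.Normal] (hQ : Q ≤ K) {x : G}
    (hx : x ∈ T) (hxQ : x ∉ Q) (hxK : x ∈ K) : K = ⊤ := by
  obtain ⟨g, hg⟩ := h.exists_gen
  obtain ⟨i, hi⟩ := h.exists_sr hT.isPGroup hx hxQ
  exact h.eq_top_of hQ hxK hi (mul_mem hxK (hK.conj_mem x hxK g)) h.isUnit_two.neg (hg x i hi)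

theorem normV (g : G) : g ∈ 𝐍(OZ Q) := normalizer_le_normalizer_OZ Q (h.norm g)

theorem f2 (hT : IsSyl 2 T ⊤) {x : G} (hx : x ∈ T) (hxQ : x ∉ Q) {v : G} (hv : v ∈ OZ Q)
    (hc : v * x = x * v) : v ∈ 𝐂(T) := by
  intro t ht
  by_cases htQ : t ∈ Q
  · exact hv.2.1 t htQ
  · have := hv.2.1 _ (h.mul_mem' hT.isPGroup hx hxQ ht htQ)
    apply mul_left_cancel (a := x)
    rw [← mul_assoc, this, ← mul_assoc, ← mul_assoc, hc]

section
variable (hO : ∀ {T : Subgroup G}, IsSyl 2 T ⊤ → OZ T ≤ Q)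
  (hZ : ∀ {T : Subgroup G}, IsSyl 2 T ⊤ → ¬ OZ T ≤ center G)
  (hJ : ∀ {T : Subgroup G}, IsSyl 2 T ⊤ → ¬ JT 2 T ≤ Q)
include hO hZ

theorem OZ_le_V (hT : IsSyl 2 T ⊤) : OZ T ≤ OZ Q := fun _ hx =>
  ⟨hO hT hx, centralizer_le_centralizer (h.le hT) hx.2.1, hx.2.2⟩

theorem f1 (hT : IsSyl 2 T ⊤) {x : G} (hx : x ∈ T) (hc : x ∈ 𝐂(OZ Q)) : x ∈ Q := by
  by_contra hxQ
  have : (OZ Q).Normal := normal_of_le_normalizer_top fun g _ => h.normV g
  have := normal_centralizer' (OZ Q)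
  have e := h.eq_top_of_normal hT (le_cent_OZ Q) hx hxQ hc
  refine hZ hT fun v hv => mem_center_iff.mpr fun g => ?_
  exact ((e ▸ mem_top g : g ∈ 𝐂(OZ Q)) v (h.OZ_le_V hO hZ hT hv)).symm

include hJ

theorem idxV (hT : IsSyl 2 T ⊤) : (𝐂(T)).relIndex (OZ Q) = 2 := by
  obtain ⟨A, hA, hAQ⟩ : ∃ A, MaxAb 2 T A ∧ ¬ A ≤ Q := by
    by_contra hc
    push Not at hc
    exact hJ hT (JT_le_iff.mpr hc)
  have hVT : OZ Q ≤ T := (OZ_le Q).trans (h.le hT)
  have hab : IsAb 2 (OZ Q) := ⟨OZ_comm Q, fun a ha => by rw [pow_two]; exact ha.2.2⟩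
  have hi := Cfsg.Agent.Lib.Glaub.MaxAb.relIndex_le hA hab hVT (inf_le_right.trans (le_cent_OZ Q))
  have h2 : Q.relIndex A ≤ 2 :=
    h.relIndex hT ▸ relIndex_le_of_le_right hA.le index_ne_zero_of_finite
  obtain ⟨a, ha, haQ⟩ := SetLike.not_le_iff_exists.mp hAQ
  have e : 𝐂(T) ⊓ OZ Q = 𝐂(A) ⊓ OZ Q := le_antisymm
    (inf_le_inf_right _ (centralizer_le_centralizer hA.le))
    fun v hv => ⟨h.f2 hT (hA.le ha) haQ hv.2 (hv.1 a ha).symm, hv.2⟩
  have e2 : (𝐂(T)).relIndex (OZ Q) = (𝐂(A)).relIndex (OZ Q) := by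
    rw [← inf_relIndex_right, e, inf_relIndex_right]
  have h0 : (𝐂(T)).relIndex (OZ Q) ≠ 0 := index_ne_zero_of_finite
  have h1 : (𝐂(T)).relIndex (OZ Q) ≠ 1 := fun h1 => haQ
    (h.f1 hO hZ hT (hA.le ha) (le_centralizer_iff.mp (relIndex_eq_one.mp h1) (hA.le ha)))
  omega

theorem f3 (hT : IsSyl 2 T ⊤) {v : G} (hv : v ∈ OZ Q) (hvT : v ∉ 𝐂(T)) {x : G} (hx : x ∈ T)
    (hxQ : x ∉ Q) : ⁅x, v⁆ ∉ center G := by
  intro hc
  have hn : (center G).Normal := inferInstance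
  have h1 : ∀ w ∈ OZ Q, ⁅x, w⁆ ∈ center G := fun w hw => by
    by_cases hwT : w ∈ 𝐂(T)
    · rw [commutatorElement_eq_one_iff_mul_comm.mpr (hwT x hx)]; exact one_mem _
    · have h2 := mul_mem_of_relIndex_two (h.idxV hO hZ hJ hT) hw (inv_mem hv) hwT
        (fun h3 => hvT (by simpa using inv_mem h3)) x hx
      have e : ⁅x, w⁆ = (w * v⁻¹) * ⁅x, v⁆ * (w * v⁻¹)⁻¹ := by
        simp only [commutatorElement_def]
        calc x * w * x⁻¹ * w⁻¹ = (x * (w * v⁻¹)) * v * x⁻¹ * w⁻¹ := by group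
          _ = _ := by rw [h2]; group
      rw [e]; exact hn.conj_mem _ hc _
  obtain ⟨g, hg⟩ := h.exists_gen
  obtain ⟨i, hi⟩ := h.exists_sr hT.isPGroup hx hxQ
  refine hZ hT fun z hz => ?_
  have hzV := h.OZ_le_V hO hZ hT hz
  have h2 : ⁅g * x * g⁻¹, z⁆ ∈ center G := by
    rw [commEl_conj_left]
    exact hn.conj_mem _ (h1 _ (conj_mem_of_mem_normalizer' (h.normV g) hzV)) g
  have hxz := hz.2.1 x hx
  have e : x * (g * x * g⁻¹) * z * (x * (g * x * g⁻¹))⁻¹ = ⁅g * x * g⁻¹, z⁆ * z := by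
    calc _ = (x * ⁅g * x * g⁻¹, z⁆) * z * x⁻¹ := by rw [commutatorElement_def]; group
      _ = ⁅g * x * g⁻¹, z⁆ * (x * z) * x⁻¹ := by rw [mem_center_iff.mp h2 x]; group
      _ = _ := by rw [hxz]; group
  have h3 := eq_one_of_odd_conj e (mem_center_iff.mp h2 _) h.odd
    (hzV.2.1 _ (h.pow_mem (hg x i hi))).symm (j := 1)
    (by simpa [pow_two] using (commEl_mem_right hzV (h.normV _)).2.2)
  rw [h3, one_mul, mul_inv_eq_iff_eq_mul] at e
  have := h.eq_top_of (K := centralizer {z}) (fun y hy => mem_centralizer_singleton_iff.mpr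
    (hzV.2.1 y hy)) (mem_centralizer_singleton_iff.mpr hxz) hi
    (mem_centralizer_singleton_iff.mpr e) h.isUnit_two.neg (hg x i hi)
  exact mem_center_iff.mpr fun y => mem_centralizer_singleton_iff.mp (this ▸ mem_top y)

theorem puLoc : PuLoc 2 ⊤ Q (OZ Q) := by
  refine ⟨h.le, fun g _ => h.norm g, OZ_le Q, fun g _ => h.normV g, le_cent_OZ Q, OZ_sq Q,
    fun hT x h1 h2 h3 => h.OZ_le_V hO hZ hT ⟨h1, h2, h3⟩, fun hT x h1 h2 => h.f1 hO hZ hT h1 h2,
    fun hT x h1 h2 v h3 h4 => h.f2 hT h1 h2 h3 h4, h.idxV hO hZ hJ, h.relIndex,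
    fun hT v h1 h2 x h3 h4 h5 => ?_, fun hT v h1 x h2 => ?_, h.gen⟩
  · rw [coe_top, centralizer_univ, ← commutatorElement_inv, inv_mem_iff] at h5
    exact h.f3 hO hZ hJ hT h1 h2 h3 h4 h5
  · rw [← commutatorElement_inv, inv_mem_iff]
    by_cases hxQ : x ∈ Q
    · rw [commutatorElement_eq_one_iff_mul_comm.mpr (h1.2.1 x hxQ)]; exact one_mem _
    · obtain ⟨i, hi⟩ := h.exists_sr hT.isPGroup h2 hxQ
      exact h.f2 hT h2 hxQ (commEl_mem_right h1 (h.normV x)) (comm_commEl (OZ_comm Q) (OZ_sq Q)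
        (h.normV x) (le_cent_OZ Q (h.sq_mem hi)) h1).symm

end

end DihQ

end Cfsg.Agent.Lib.Glaub
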