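/-
Pushing up over dihedral groups, part 2: identification of the groups.
-/
import Cfsg.Agent.Lib.Glaub.Dih1
import Cfsg.Agent.Lib.Forms.OrthTri3
import Mathlib.GroupTheory.SpecificGroups.KleinFour

set_option autoImplicit false
set_option linter.unusedSectionVars false
set_option linter.style.haveILetI false
set_option maxHeartbeats 800000

namespace Cfsg.Agent.Lib.Glaub

open Subgroup Cfsg.Agent.Lib.Core Cfsg.Agent.Lib.ZJ DihedralGroup
open scoped commutatorElement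

variable {G : Type*} [Group G]

theorem isKleinFour_of {K : Type*} [Group K] (hc : Nat.card K = 4) (h : ∀ x : K, x * x = 1) :
    IsKleinFour K := by
  have : Finite K := Nat.finite_of_card_ne_zero (by omega)
  have : Nontrivial K := Finite.one_lt_card_iff_nontrivial.mp (by omega)
  exact ⟨hc, (Monoid.exponent_eq_prime_iff Nat.prime_two).mpr fun g hg =>
    orderOf_eq_prime (by rw [pow_two, h]) hg⟩

theorem eq_one_of_mem_odd [Finite G] {T : Subgroup G} (hT : IsPGroup 2 T) {x : G} (hx : x ∈ T)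
    (hO : x ∈ pPrimeCore 2 G) : x = 1 := by
  have h1 : T ⊓ pPrimeCore 2 G = ⊥ := eq_bot_of_isPGroup_of_not_dvd (hT.to_le inf_le_left)
    fun hd => pPrimeCore_not_dvd (hd.trans (card_dvd_of_le inf_le_right))
  exact mem_bot.mp (h1 ▸ (⟨hx, hO⟩ : x ∈ T ⊓ pPrimeCore 2 G))

namespace DihQ

variable [Finite G] {n : ℕ} {Q T T' : Subgroup G} {φ : G →* DihedralGroup n} (h : DihQ Q φ)
include h

theorem exists_tau (hQ : ∀ q ∈ Q, q * q = 1) {x : G} (hx : x * x = 1) {i : ZMod n}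
    (hi : φ x = sr i) : ∃ τ u, IsUnit u ∧ φ τ = r u ∧ τ ^ n = 1 ∧ x * τ * x⁻¹ = τ⁻¹ := by
  obtain ⟨g, hg⟩ := h.exists_gen
  have h1 := hg x i hi
  have ix : x⁻¹ = x := inv_eq_of_mul_eq_one_right hx
  refine ⟨(x * (g * x * g⁻¹)) ^ 2, -2 * 2, h.isUnit_two.neg.mul h.isUnit_two,
    by rw [map_pow, h1, r_pow]; simp, ?_, ?_⟩
  · rw [← pow_mul, mul_comm, pow_mul, pow_two]; exact hQ _ (h.pow_mem h1)
  · rw [← conj_pow, ← inv_pow]
    congr 1
    simp only [mul_inv_rev, inv_inv, ix]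
    calc x * (x * (g * x * g⁻¹)) * x = (x * x) * (g * x * g⁻¹) * x := by group
      _ = _ := by rw [hx]; group

theorem pow_mem_odd {x τ : G} {i u : ZMod n} (hi : φ x = sr i) (hu : IsUnit u) (hτ : φ τ = r u)
    (hn : τ ^ n = 1) (hx : x * τ * x⁻¹ = τ⁻¹) {k : ℕ} (hk : τ ^ k ∈ 𝐂(Q)) :
    τ ^ k ∈ pPrimeCore 2 G := by
  have h1 : 𝐍(zpowers (τ ^ k)) = ⊤ := by
    refine h.eq_top_of (le_normalizer_of_le_centralizer (le_centralizer_iff.mp (zpowers_le.mpr hk)))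
      (mem_normalizer_of_conj_mem ?_) hi (mem_normalizer_of_conj_mem ?_) hu hτ
    · rintro _ ⟨m, rfl⟩
      simp only
      rw [← conj_zpow, ← conj_pow, hx, inv_pow]
      exact zpow_mem (inv_mem (mem_zpowers _)) m
    · rintro _ ⟨m, rfl⟩
      simp only
      rw [← conj_zpow, ← conj_pow, mul_inv_cancel_right]
      exact zpow_mem (mem_zpowers _) m
  have := normal_of_le_normalizer_top h1.ge
  refine le_pPrimeCore (fun hd => ?_) (mem_zpowers _)
  rw [Nat.card_zpowers] at hd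
  have : orderOf (τ ^ k) ∣ n := orderOf_dvd_of_pow_eq_one (by rw [← pow_mul, mul_comm, pow_mul, hn, one_pow])
  exact (Nat.not_even_iff_odd.mpr h.odd) (even_iff_two_dvd.mpr (hd.trans this))

theorem caseA (hT : IsSyl 2 T ⊤) (hT2 : ∀ t ∈ T, t * t = 1) (hQ : Q ≤ center G)
    (hc : Nat.card Q = 2) : Nat.card T = 4 ∧
      Nonempty (G ⧸ pPrimeCore 2 G ≃* Multiplicative (ZMod 2) × Multiplicative (ZMod 2)) := by
  have hcT : Nat.card T = 4 := by rw [← card_mul_relIndex (h.le hT), hc, h.relIndex hT]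
  refine ⟨hcT, ?_⟩
  obtain ⟨x, hx, hxQ⟩ := h.exists_not_mem hT
  obtain ⟨i, hi⟩ := h.exists_sr hT.isPGroup hx hxQ
  obtain ⟨τ, u, hu, hτ, hn, hxτ⟩ := h.exists_tau (fun q hq => hT2 q (h.le hT hq)) (hT2 x hx) hi
  have hO := h.pow_mem_odd hi hu hτ hn hxτ (k := 1)
    (fun q hq => (mem_center_iff.mp (hQ hq) _).symm)
  rw [pow_one] at hO
  have htop := h.eq_top_of ((h.le hT).trans le_sup_left) (mem_sup_left hx) hi (mem_sup_right hO) hu hτ
  let f : T →* G ⧸ pPrimeCore 2 G := (QuotientGroup.mk' _).comp T.subtype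
  have hf : Function.Bijective f := by
    refine ⟨(injective_iff_map_eq_one f).mpr fun t ht => Subtype.ext
      (eq_one_of_mem_odd hT.isPGroup t.2 ((QuotientGroup.eq_one_iff _).mp ht)), fun y => ?_⟩
    obtain ⟨g, rfl⟩ := QuotientGroup.mk_surjective y
    obtain ⟨t, ht, o, ho, rfl⟩ :=
      (mem_sup_of_le_normalizer_right le_normalizer_of_normal).mp (htop ▸ mem_top g)
    exact ⟨⟨t, ht⟩, (QuotientGroup.mk_mul_of_mem t ho).symm⟩
  have := isKleinFour_of hcT fun t => Subtype.ext (hT2 t t.2)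
  have := isKleinFour_of (K := Multiplicative (ZMod 2) × Multiplicative (ZMod 2)) (by simp)
    (by decide)
  obtain ⟨e⟩ := IsKleinFour.nonempty_mulEquiv (G₁ := T)
    (G₂ := Multiplicative (ZMod 2) × Multiplicative (ZMod 2))
  exact ⟨(MulEquiv.ofBijective f hf).symm.trans e⟩

theorem caseB (hQ : Q = pCore 2 G) (hl : PuLoc 2 ⊤ Q Q) (hT : IsSyl 2 T ⊤) {x : G} (hx : x ∈ T)
    (hxQ : x ∉ Q) (hx2 : x * x = 1) (hZ : ∀ {T : Subgroup G}, IsSyl 2 T ⊤ → ¬ Q ⊓ 𝐂(T) ≤ center G)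
    (hc : Nat.card ↥(Q ⊓ center G) ≤ 2) :
    (Nat.card T = 8 ∨ Nat.card T = 16) ∧
      (Nonempty (G ⧸ pPrimeCore 2 G ≃* Equiv.Perm (Fin 4)) ∨
       Nonempty (G ⧸ pPrimeCore 2 G ≃* Equiv.Perm (Fin 4) × Multiplicative (ZMod 2))) := by
  have hZn : (center G).Normal := inferInstance
  have hQn := h.normal
  have hcomm : ∀ a ∈ Q, ∀ b ∈ Q, a * b = b * a := fun a ha b hb => hl.cent hb a ha
  obtain ⟨i, hi⟩ := h.exists_sr hT.isPGroup hx hxQ
  obtain ⟨τ, u, hu, hτ, hn, hxτ⟩ := h.exists_tau hl.sq hx2 hi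
  have ix : x⁻¹ = x := inv_eq_of_mul_eq_one_right hx2
  have hi2 : φ (x * τ) = sr (i + u) := by rw [map_mul, hi, hτ, sr_mul_r]
  obtain ⟨T', hT', hx'⟩ := h.exists_syl hi2
  have hx'Q := h.not_mem hi2
  have hcen : ∀ v ∈ Q, x * v = v * x → τ * v = v * τ → v ∈ center G := fun v hv h1 h2 => by
    have := h.eq_top_of (K := centralizer {v}) (fun y hy => mem_centralizer_singleton_iff.mpr
      (hcomm y hy v hv)) (mem_centralizer_singleton_iff.mpr h1) hi
      (mem_centralizer_singleton_iff.mpr h2) hu hτ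
    exact mem_center_iff.mpr fun y => mem_centralizer_singleton_iff.mp (this ▸ mem_top y)
  have hcen' : ∀ v ∈ Q, v ∈ 𝐂(T) → v ∈ 𝐂(T') → v ∈ center G := fun v hv h1 h2 => by
    refine hcen v hv (h1 x hx) ?_
    apply mul_left_cancel (a := x)
    rw [← mul_assoc, h2 _ hx', ← mul_assoc, ← mul_assoc, h1 x hx]
  have idx : ∀ {A B : Subgroup G}, IsSyl 2 A ⊤ → IsSyl 2 B ⊤ →
      (∀ v ∈ Q, v ∈ 𝐂(A) → v ∈ 𝐂(B) → v ∈ center G) → (center G).relIndex (Q ⊓ 𝐂(A)) = 2 := by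
    intro A B hA hB hAB
    have h1 : (𝐂(B)).relIndex (Q ⊓ 𝐂(A)) ≤ 2 :=
      hl.idxV hB ▸ relIndex_le_of_le_right inf_le_left index_ne_zero_of_finite
    have h2 : (center G).relIndex (Q ⊓ 𝐂(A)) ≤ (𝐂(B)).relIndex (Q ⊓ 𝐂(A)) := by
      rw [← inf_relIndex_right 𝐂(B)]
      exact relIndex_le_of_le_left (fun v hv => hAB v hv.2.1 hv.2.2 hv.1) index_ne_zero_of_finite
    have h3 : (center G).relIndex (Q ⊓ 𝐂(A)) ≠ 0 := index_ne_zero_of_finite
    have h4 : (center G).relIndex (Q ⊓ 𝐂(A)) ≠ 1 := fun e => hZ hA (relIndex_eq_one.mp e)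
    omega
  have idx1 := idx hT hT' hcen'
  have idx2 := idx hT' hT fun v h1 h2 h3 => hcen' v h1 h3 h2
  obtain ⟨v, hv, hvc⟩ := SetLike.not_le_iff_exists.mp (hZ hT)
  obtain ⟨w, hw, hwc⟩ := SetLike.not_le_iff_exists.mp (hZ hT')
  have hwT : w ∉ 𝐂(T) := fun h1 => hwc (hcen' w hw.1 h1 hw.2)
  have hvT : v ∉ 𝐂(T') := fun h1 => hvc (hcen' v hv.1 hv.2 h1)
  set π := QuotientGroup.mk' (center G) with hπ
  have hk : ∀ g, π g = 1 ↔ g ∈ center G := fun g => QuotientGroup.eq_one_iff g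
  have sqπ : ∀ q ∈ Q, π q * π q = 1 := fun q hq => by rw [← map_mul, hl.sq q hq, map_one]
  have act : ∀ {A : Subgroup G}, IsSyl 2 A ⊤ → (center G).relIndex (Q ⊓ 𝐂(A)) = 2 → ∀ y ∈ A, y ∉ Q →
      ∀ a ∈ Q ⊓ 𝐂(A), a ∉ center G → ∀ b ∈ Q, b ∉ 𝐂(A) → π y * π b * (π y)⁻¹ = π a * π b := by
    intro A hA hidx y hy hyQ a ha hac b hb hbA
    have h1 := hl.f3 hA b hb hbA y hy hyQ
    rw [coe_top, centralizer_univ] at h1
    have h2 := mul_mem_of_relIndex_two hidx ha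
      (⟨commEl_mem_left hb (h.norm y), hl.f4 hA b hb y hy⟩ : ⁅b, y⁆ ∈ Q ⊓ 𝐂(A)) hac h1
    rw [← hk, map_mul, map_commutatorElement, commutatorElement_def,
      inv_eq_of_mul_eq_one_right (sqπ b hb)] at h2
    have h3 := congrArg π (hcomm a ha.1 b hb)
    rw [map_mul, map_mul] at h3
    have h4 : π a * π b * (π a * π b) = 1 := by rw [← map_mul]; exact sqπ _ (mul_mem ha.1 hb)
    rw [← inv_eq_of_mul_eq_one_right h4, eq_comm]
    exact inv_eq_of_mul_eq_one_right (by rw [← h2]; group)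
  have fix : ∀ y b : G, y * b = b * y → π y * π b * (π y)⁻¹ = π b := fun y b e => by
    rw [← map_mul, e, map_mul, mul_inv_cancel_right]
  have a1 := fix x v (hv.2 x hx)
  have a2 := act hT idx1 x hx hxQ v hv hvc w hw.1 hwT
  have a3 := fix (x * τ) w (hw.2 _ hx')
  have a4 := act hT' idx2 _ hx' hx'Q w hw hwc v hv.1 hvT
  have cvw : π v * π w = π w * π v := by rw [← map_mul, hcomm v hv.1 w hw.1, map_mul]
  have eτ : π τ = π x * π (x * τ) := by rw [← map_mul, ← mul_assoc, hx2, one_mul]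
  have b1 : π τ * π v * (π τ)⁻¹ = π w := by
    calc π τ * π v * (π τ)⁻¹ = π x * (π (x * τ) * π v * (π (x * τ))⁻¹) * (π x)⁻¹ := by
          rw [eτ]; group
      _ = (π x * π w * (π x)⁻¹) * (π x * π v * (π x)⁻¹) := by rw [a4]; group
      _ = π w := by rw [a1, a2, cvw, mul_assoc, sqπ v hv.1, mul_one]
  have b2 : π τ * π w * (π τ)⁻¹ = π v * π w := by
    calc π τ * π w * (π τ)⁻¹ = π x * (π (x * τ) * π w * (π (x * τ))⁻¹) * (π x)⁻¹ := by
          rw [eτ]; group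
      _ = _ := by rw [a3, a2]
  have b3 : π τ * (π v * π w) * (π τ)⁻¹ = π v := by
    rw [← conj_mul, b1, b2, cvw, ← mul_assoc, sqπ w hw.1, one_mul]
  have hgenQ : ∀ K : Subgroup G, Q ⊓ center G ≤ K → ∀ a ∈ K, ∀ b ∈ K, a ∈ Q ⊓ 𝐂(T) → a ∉ center G →
      b ∈ Q → b ∉ 𝐂(T) → Q ≤ K := by
    intro K hK a ha b hb ha1 ha2 hb1 hb2
    have h1 : Q ⊓ 𝐂(T) ≤ K := fun q hq => by
      by_cases hqc : q ∈ center G
      · exact hK ⟨hq.1, hqc⟩
      · have := hK ⟨mul_mem hq.1 ha1.1, mul_mem_of_relIndex_two idx1 hq ha1 hqc ha2⟩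
        simpa using mul_mem this (inv_mem ha)
    intro q hq
    by_cases hqc : q ∈ 𝐂(T)
    · exact h1 ⟨hq, hqc⟩
    · have := h1 ⟨mul_mem hq hb1, mul_mem_of_relIndex_two (hl.idxV hT) hq hb1 hqc hb2⟩
      simpa using mul_mem this (inv_mem hb)
  have hτ3 : τ ^ 3 ∈ 𝐂(Q) := by
    have h1 : Q ≤ cMod (τ ^ 3) (center G) ⊤ le_normalizer_of_normal := by
      refine hgenQ _ (fun c hc => ⟨mem_top _, ?_⟩) v ⟨mem_top _, ?_⟩ w ⟨mem_top _, ?_⟩ hv hvc hw.1 hwT
      · rw [commutatorElement_eq_one_iff_mul_comm.mpr (mem_center_iff.mp hc.2 _)]; exact one_mem _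
      · rw [← hk, map_commutatorElement, commutatorElement_def, mul_inv_eq_one, map_pow]
        calc π τ ^ 3 * π v * (π τ ^ 3)⁻¹
            = π τ * (π τ * (π τ * π v * (π τ)⁻¹) * (π τ)⁻¹) * (π τ)⁻¹ := by
              rw [pow_three]; group
          _ = π v := by rw [b1, b2, b3]
      · rw [← hk, map_commutatorElement, commutatorElement_def, mul_inv_eq_one, map_pow]
        calc π τ ^ 3 * π w * (π τ ^ 3)⁻¹
            = π τ * (π τ * (π τ * π w * (π τ)⁻¹) * (π τ)⁻¹) * (π τ)⁻¹ := by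
              rw [pow_three]; group
          _ = π w := by rw [b2, b3, b1]
    intro q hq
    have h2 := (h1 hq).2
    refine (commutatorElement_eq_one_iff_mul_comm.mp (eq_one_of_odd_conj (s := τ ^ 3) (y := q)
      (by simp [commutatorElement_def]) (mem_center_iff.mp h2 _) h.odd ?_ (j := 1) ?_)).symm
    · rw [← pow_mul, mul_comm, pow_mul, hn]; simp
    · simpa [pow_two] using hl.sq _ (commEl_mem_right hq (h.norm _))
  have hO3 := h.pow_mem_odd hi hu hτ hn hxτ hτ3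
  -- the elements `a` and `b`
  have hv1 : τ * v * τ⁻¹ ∈ Q := hQn.conj_mem v hv.1 τ
  have hv2 : τ * (τ * v * τ⁻¹) * τ⁻¹ ∈ Q := hQn.conj_mem _ hv1 τ
  have e3 : τ * (τ * (τ * v * τ⁻¹) * τ⁻¹) * τ⁻¹ = v := by
    calc _ = τ ^ 3 * v * (τ ^ 3)⁻¹ := by rw [pow_three]; group
      _ = v := by rw [← hτ3 v hv.1, mul_inv_cancel_right]
  set v1 := τ * v * τ⁻¹ with hv1d
  set v2 := τ * v1 * τ⁻¹ with hv2d
  have p1 : π v1 = π w := by rw [hv1d, map_mul, map_mul, map_inv, b1]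
  have p2 : π v2 = π v * π w := by rw [hv2d, map_mul, map_mul, map_inv, p1, b2]
  have x1 : x * v1 * x⁻¹ = v2 := by
    calc x * v1 * x⁻¹ = (x * τ * x⁻¹) * (x * v * x⁻¹) * (x * τ * x⁻¹)⁻¹ := by rw [hv1d]; group
      _ = τ⁻¹ * v * τ := by rw [hxτ, hv.2 x hx]; group
      _ = v2 := by rw [← e3]; group
  have x2 : x * v2 * x⁻¹ = v1 := by
    rw [← x1, ix]
    calc x * (x * v1 * x) * x = (x * x) * v1 * (x * x) := by group
      _ = v1 := by rw [hx2]; group
  set a := v1 * v2 with ha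
  have haQ : a ∈ Q := mul_mem hv1 hv2
  have hb : τ * a * τ⁻¹ = v2 * v := by rw [ha, ← conj_mul, e3]
  have hab : τ * (τ * a * τ⁻¹) * τ⁻¹ = a * (τ * a * τ⁻¹) := by
    rw [hb, ← conj_mul, e3, ha, ← hv1d, hcomm v hv.1 v1 hv1]
    calc v1 * v = v1 * (v2 * v2) * v := by rw [hl.sq v2 hv2, mul_one]
      _ = _ := by group
  have hxa : x * a = a * x := by
    rw [← mul_inv_eq_iff_eq_mul, ha, ← conj_mul, x1, x2, hcomm v1 hv1 v2 hv2]
  have pa : π a = π v := by rw [ha, map_mul, p1, p2, cvw, ← mul_assoc, sqπ w hw.1, one_mul]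
  have pb : π (τ * a * τ⁻¹) = π w := by rw [map_mul, map_mul, map_inv, pa, b1]
  have hbQ : τ * a * τ⁻¹ ∈ Q := hQn.conj_mem a haQ τ
  have hvw : π v * π w ≠ 1 := fun e => hvc (by
    rw [← hk, ← b3, e]; simp)
  set O := pPrimeCore 2 G with hO
  set ρ := QuotientGroup.mk' O with hρ
  have hkρ : ∀ g, ρ g = 1 ↔ g ∈ O := fun g => QuotientGroup.eq_one_iff g
  have hOC : O ≤ 𝐂(Q) := by rw [hQ]; exact le_centralizer_iff.mp pCore_le_centralizer_pPrimeCore
  obtain ⟨ι, m1, m2, m3, hι⟩ := Cfsg.Agent.Lib.Forms.exists_S4 (a := ρ a) (τ := ρ τ) (ρ := ρ x)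
    (by rw [← map_mul, hx2, map_one]) (by rw [← map_inv, ← map_mul, ← map_mul, hxτ, map_inv])
    (by rw [← map_pow, hkρ]; exact hO3) (by rw [← map_mul, hl.sq a haQ, map_one])
    (by rw [← map_mul, hxa, map_mul]) (by simpa using congrArg ρ hab)
  have key : ∀ c ∈ Q ⊓ center G, ∀ σ, ι σ * ρ c = 1 → σ = 1 ∧ c = 1 := by
    intro c hc σ e
    obtain ⟨k1, k2, k3, k4, l1, l2, l3, l4, e1, e2⟩ := hι σ
    have e' : a ^ k1 * (τ * a * τ⁻¹) ^ k2 * (x ^ k3 * τ ^ k4) * c ∈ O := by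
      rw [← hkρ, ← e, e1]; simp
    have hq : a ^ k1 * (τ * a * τ⁻¹) ^ k2 ∈ Q := mul_mem (Q.pow_mem haQ _) (Q.pow_mem hbQ _)
    have h1 : x ^ k3 * τ ^ k4 ∈ 𝐂(Q) := by
      have := mul_mem (mul_mem (inv_mem (hl.cent hq)) (hOC e')) (inv_mem (hl.cent hc.1))
      rwa [mul_assoc, mul_inv_cancel_right, inv_mul_cancel_left] at this
    have h3 : k3 = 0 := by
      by_contra hne
      obtain rfl : k3 = 1 := by omega
      have h2 : φ (x ^ 1 * τ ^ k4) = sr (i + u * (k4 : ZMod n)) := by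
        rw [map_mul, pow_one, map_pow, hi, hτ, r_pow, sr_mul_r]
      obtain ⟨T₁, hT₁, h4⟩ := h.exists_syl h2
      exact h.not_mem h2 (hl.f1 hT₁ _ h4 h1)
    subst h3
    have h4 : k4 = 0 := by
      by_contra hne
      have h5 : τ ∈ 𝐂(Q) := by
        rw [pow_zero, one_mul] at h1
        obtain rfl | rfl : k4 = 1 ∨ k4 = 2 := by omega
        · simpa using h1
        · have := mul_mem hτ3 (inv_mem h1)
          rwa [show τ ^ 3 * (τ ^ 2)⁻¹ = τ by group] at this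
      exact hvc (hcen v hv.1 (hv.2 x hx) (h5 v hv.1).symm)
    subst h4
    rw [pow_zero, pow_zero, mul_one, mul_one] at e'
    have h6 := eq_one_of_mem_odd h.isP (mul_mem hq hc.1) e'
    have h7 := congrArg π h6
    rw [map_mul, (hk c).mpr hc.2, mul_one, map_mul, map_pow, map_pow, pa, pb, map_one] at h7
    have h8 : k1 = 0 ∧ k2 = 0 := by
      obtain rfl | rfl : k1 = 0 ∨ k1 = 1 := by omega
      all_goals obtain rfl | rfl : k2 = 0 ∨ k2 = 1 := by omega
      · exact ⟨rfl, rfl⟩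
      · exact absurd ((hk w).mp (by simpa using h7)) hwc
      · exact absurd ((hk v).mp (by simpa using h7)) hvc
      · exact absurd (by simpa using h7) hvw
    obtain ⟨rfl, rfl⟩ := h8
    exact ⟨e2 rfl rfl rfl rfl, by simpa using h6⟩
  have hsurj : ∀ K : Subgroup (G ⧸ O), ι.range ≤ K → (∀ c ∈ Q ⊓ center G, ρ c ∈ K) → K = ⊤ := by
    intro K h1 h2
    have haT : a ∈ 𝐂(T) := hl.f2 hT x hx hxQ a haQ hxa.symm
    have h3 : Q ≤ K.comap ρ := by
      refine hgenQ _ h2 a (h1 m1) (τ * a * τ⁻¹) ?_ ⟨haQ, haT⟩ (fun e => hvc (by rwa [← hk, pa, hk] at e))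
        hbQ fun e => hwT ?_
      · simpa using h1 (mul_mem (mul_mem m2 m1) (inv_mem m2))
      · have : (τ * a * τ⁻¹)⁻¹ * w ∈ center G := by rw [← hk, map_mul, map_inv, pb, inv_mul_cancel]
        have := mul_mem e (center_le_centralizer _ this)
        rwa [mul_inv_cancel_left] at this
    have := h.eq_top_of h3 (h1 m3) hi (h1 m2) hu hτ
    rw [← map_comap_eq_self_of_surjective (QuotientGroup.mk'_surjective O) K, this]
    exact map_top_of_surjective _ (QuotientGroup.mk'_surjective O)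
  have hcard : Nat.card T = 8 * Nat.card ↥(Q ⊓ center G) := by
    have h1 := relIndex_inf_mul_relIndex (center G) 𝐂(T) Q
    rw [inf_comm 𝐂(T), idx1, hl.idxV hT, inf_of_le_left (center_le_centralizer _)] at h1
    rw [← card_mul_relIndex (h.le hT), h.relIndex hT, ← card_inf_mul_relIndex (center G) Q, ← h1,
      inf_comm]
    ring
  have hinj : Function.Injective ι := (injective_iff_map_eq_one ι).mpr fun σ e =>
    (key 1 (one_mem _) σ (by simpa using e)).1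
  have hpos : 0 < Nat.card ↥(Q ⊓ center G) := Nat.card_pos
  rcases (show Nat.card ↥(Q ⊓ center G) = 1 ∨ Nat.card ↥(Q ⊓ center G) = 2 by omega) with h1 | h1
  · refine ⟨Or.inl (by omega), Or.inl ⟨(MulEquiv.ofBijective ι ⟨hinj, ?_⟩).symm⟩⟩
    refine MonoidHom.range_eq_top.mp (hsurj _ le_rfl fun c hc => ?_)
    rw [card_eq_one.mp h1, mem_bot] at hc
    rw [hc, map_one]; exact one_mem _
  · refine ⟨Or.inr (by omega), Or.inr ?_⟩
    obtain ⟨⟨c, hc⟩, hc1, hc2⟩ := (Nat.card_eq_two_iff' (1 : ↥(Q ⊓ center G))).mp h1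
    have hc1' : c ≠ 1 := fun e => hc1 (Subtype.ext e)
    have hcc : c ^ 2 = 1 := by rw [pow_two]; exact hl.sq c hc.1
    let j : Multiplicative (ZMod 2) →* G ⧸ O := ρ.comp
      (MonoidHom.mk' (fun z => c ^ (Multiplicative.toAdd z).val) fun s t => pow_val_add hcc _ _)
    have hcomm' : ∀ σ z, Commute (ι σ) (j z) := fun σ z => by
      obtain ⟨g, hg⟩ := QuotientGroup.mk'_surjective O (ι σ)
      rw [← hg]
      exact (show Commute g _ from mem_center_iff.mp ((center G).pow_mem hc.2 _) g).map ρ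
    refine ⟨(MulEquiv.ofBijective (ι.noncommCoprod j hcomm') ⟨?_, ?_⟩).symm⟩
    · refine (injective_iff_map_eq_one _).mpr fun ⟨σ, z⟩ e => ?_
      obtain ⟨e1, e2⟩ := key _ (Subgroup.pow_mem _ hc _) σ e
      exact Prod.ext e1 (eq_zero_of_pow_val hcc hc1' e2)
    · rw [← MonoidHom.range_eq_top, MonoidHom.noncommCoprod_range]
      refine hsurj _ le_sup_left fun d hd => ?_
      by_cases hd1 : d = 1
      · rw [hd1, map_one]; exact one_mem _
      · have : d = c := congrArg Subtype.val (hc2 ⟨d, hd⟩ fun e => hd1 (congrArg Subtype.val e))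
        refine mem_sup_right ⟨Multiplicative.ofAdd 1, ?_⟩
        rw [this]
        change ρ (c ^ (1 : ZMod 2).val) = ρ c
        rw [show (1 : ZMod 2).val = 1 from rfl, pow_one]

end DihQ

end Cfsg.Agent.Lib.Glaub
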