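/-
Pushing up over dihedral groups, part 3: the theorem.
-/
import Cfsg.Agent.Lib.Glaub.Dih2

set_option autoImplicit false
set_option linter.unusedSectionVars false
set_option linter.style.haveILetI false
set_option maxHeartbeats 800000

namespace Cfsg.Agent.Lib.Glaub

open Subgroup Cfsg.Agent.Lib.Core Cfsg.Agent.Lib.ZJ DihedralGroup
open scoped commutatorElement

variable {G : Type*} [Group G]

/-- The subgroup generated by the squares. -/
def Mho (K : Subgroup G) : Subgroup G := closure {x | ∃ k ∈ K, k * k = x}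

theorem Mho_le (K : Subgroup G) : Mho K ≤ K := (closure_le _).mpr (by
  rintro _ ⟨k, hk, rfl⟩; exact K.mul_mem hk hk)

theorem normalizer_le_normalizer_Mho [Finite G] (K : Subgroup G) : 𝐍(K) ≤ 𝐍(Mho K) := by
  intro g hg
  apply mem_normalizer_of_cj_le
  rw [Mho, MonoidHom.map_closure, closure_le]
  rintro _ ⟨_, ⟨k, hk, rfl⟩, rfl⟩
  exact subset_closure ⟨g * k * g⁻¹, conj_mem_of_mem_normalizer hg hk, by simp⟩

theorem Mho_le_of {K L : Subgroup G} (h : ∀ k ∈ K, ∃ l ∈ L, l * l = k * k) : Mho K ≤ Mho L :=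
  closure_mono (by rintro _ ⟨k, hk, rfl⟩; exact h k hk)

theorem sq_of_Mho {K : Subgroup G} (h : Mho K = ⊥) : ∀ k ∈ K, k * k = 1 := fun k hk =>
  mem_bot.mp (h ▸ subset_closure ⟨k, hk, rfl⟩)

theorem comm_of_sq {K : Subgroup G} (h : ∀ k ∈ K, k * k = 1) : K ≤ 𝐂(K) := fun a ha b hb => by
  have := h _ (mul_mem hb ha)
  rw [← inv_eq_of_mul_eq_one_right this, mul_inv_rev, inv_eq_of_mul_eq_one_right (h a ha),
    inv_eq_of_mul_eq_one_right (h b hb)]

theorem dihedral_pushing_up [Finite G] (H : Subgroup G) (hO : pCore 2 H ≠ ⊥) {n : ℕ}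
    {φ : H →* DihedralGroup n} (h : DihQ (pCore 2 H) φ) {P : Subgroup G} (hS : IsSyl 2 P H) {y : G}
    (hy2 : y ^ 2 ∈ P ⊔ 𝐂(P)) (hyN : y ∈ 𝐍(P))
    (star : ∀ W ≤ P, H ≤ 𝐍(W) → y ∈ 𝐍(W) → W = ⊥) :
    (Nat.card P = 4 ∨ Nat.card P = 8 ∨ Nat.card P = 16) ∧
    (Nonempty (H ⧸ pPrimeCore 2 H ≃* Multiplicative (ZMod 2) × Multiplicative (ZMod 2)) ∨
     Nonempty (H ⧸ pPrimeCore 2 H ≃* Equiv.Perm (Fin 4)) ∨
     Nonempty (H ⧸ pPrimeCore 2 H ≃* Equiv.Perm (Fin 4) × Multiplicative (ZMod 2))) := by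
  have hf := H.subtype_injective
  have htop : (⊤ : Subgroup H).map H.subtype = H := by rw [← MonoidHom.range_eq_map, range_subtype]
  obtain ⟨T, hT, hPT⟩ := isSyl_of_map hf (A := ⊤) (T' := P) (by rwa [htop])
  set Q₀ := pCore 2 H with hQ₀
  set Q := Q₀.map H.subtype with hQ
  have mm : ∀ {K : Subgroup H} {x : H}, (x : G) ∈ K.map H.subtype ↔ x ∈ K := mem_map_iff_mem hf
  have hQP : Q ≤ P := hPT ▸ map_mono (h.le hT)
  have hQn : H ≤ 𝐍(Q) := le_normalizer_map_subtype_of_normal Q₀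
  have hP1 : P ≠ ⊥ := fun e => hO (by
    rw [← map_eq_bot_iff_of_injective _ hf]; exact eq_bot_iff.mpr (e ▸ hQP))
  have hcardP : Nat.card P = Nat.card T := by rw [hPT, card_map_subtype]
  have hyy : ∀ K ≤ P, H ≤ 𝐍(K) → cj(y, cj(y, K)) = K := fun K hK hn => by
    rw [← cj_mul, ← pow_two]
    exact cj_of_norm ((sup_le (hS.le.trans hn)
      (le_normalizer_of_le_centralizer (centralizer_le_centralizer hK)) : P ⊔ 𝐂(P) ≤ 𝐍(K)) hy2)
  have hinf : ∀ K ≤ P, H ≤ 𝐍(K) → y ∈ 𝐍(K ⊓ cj(y, K)) := fun K hK hn => by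
    rw [← map_conj_eq_iff, map_conj_inf, hyy K hK hn, inf_comm]
  have hcard : ∀ K L : Subgroup G, K ≤ P → K ≤ 𝐂(H) → cj(y, K) ≤ L → Nat.card K ≤ K.relIndex L := by
    intro K L hK hc hL
    have hn : H ≤ 𝐍(K) := le_normalizer_of_le_centralizer (le_centralizer_iff.mp hc)
    have h1 := star _ (inf_le_left.trans hK)
      (le_normalizer_of_le_centralizer (le_centralizer_iff.mp (inf_le_left.trans hc))) (hinf K hK hn)
    have h2 := card_inf_mul_relIndex K cj(y, K)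
    rw [h1, card_bot, one_mul, card_map_conj] at h2
    exact h2 ▸ relIndex_le_of_le_right hL index_ne_zero_of_finite
  have hidx : Q.relIndex P = 2 := by
    rw [hPT, hQ, relIndex_map_map_of_injective _ _ hf, h.relIndex hT]
  have hZ : ∀ {T' : Subgroup H}, IsSyl 2 T' ⊤ → ¬ OZ T' ≤ center H := by
    intro T' hT' hle
    obtain ⟨g, -, rfl⟩ := hT.exists_conj hT'
    have h1 : OZ T ≤ center H := by
      rw [← cj_OZ, cj_le_iff_le_cj, cj_of_norm (le_normalizer_of_normal (mem_top _))] at hle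
      exact hle
    refine OZ_ne_bot hS.isPGroup hP1 (star _ (OZ_le P) ?_ (normalizer_le_normalizer_OZ P hyN))
    refine le_normalizer_of_le_centralizer (le_centralizer_iff.mp ?_)
    rw [hPT, ← map_OZ hf]
    exact (map_mono h1).trans (by rw [map_subtype_center]; exact inf_le_right)
  have hJ : ∀ {T' : Subgroup H}, IsSyl 2 T' ⊤ → ¬ JT 2 T' ≤ Q₀ := by
    intro T' hT' hle
    obtain ⟨g, -, rfl⟩ := hT.exists_conj hT'
    have h1 : JT 2 T ≤ Q₀ := by
      rw [← map_JT (MulAut.conj g).injective, cj_le_iff_le_cj, cj_of_norm (h.norm _)] at hle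
      exact hle
    have h2 : JT 2 P ≤ Q := by rw [hPT, ← map_JT hf]; exact map_mono h1
    refine JT_ne_bot (p := 2) (n := 2) dvd_rfl hS.isPGroup hP1
      (star _ (JT_le P) ?_ (normalizer_le_normalizer_JT P hyN))
    rw [← JT_eq_of_le h2 hQP]
    exact hQn.trans (normalizer_le_normalizer_JT Q)
  by_cases hO' : OZ T ≤ Q₀
  · have hO'' : ∀ {T' : Subgroup H}, IsSyl 2 T' ⊤ → OZ T' ≤ Q₀ := by
      intro T' hT'
      obtain ⟨g, -, rfl⟩ := hT.exists_conj hT'
      rw [← cj_OZ]; exact map_conj_le_of_le hO' (h.norm g)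
    have hl₀ := h.puLoc hO'' hZ hJ
    have hl := hl₀.map hf
    rw [htop, map_OZ hf, ← hQ] at hl
    have hV : OZ Q ≠ ⊥ := OZ_ne_bot (hS.isPGroup.to_le hQP) fun e => hO (by
      rwa [← map_eq_bot_iff_of_injective _ hf])
    have hVP : OZ Q ≤ P := (OZ_le Q).trans hQP
    obtain ⟨m, hm, hc⟩ := amalgam_one (N := P ⊔ zpowers y) hS (fun g hg => mem_sup_left (by
        have : (⟨g, hg.1⟩ : H) ∈ 𝐍(T) := mem_normalizer_of_conj_mem fun t ht => by
          rw [← mm, ← hPT]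
          exact conj_mem_of_mem_normalizer hg.2 (hPT ▸ mm.mpr ht)
        rw [hPT]; exact mm.mpr (h.normalizer_le hT this)))
      (sup_le le_normalizer (zpowers_le.mpr hyN)) hl hV
      (fun W h1 h2 h3 => star W h1 h2 (h3 (mem_sup_right (mem_zpowers y))))
    have hc' : ¬ cj(y, OZ Q) ≤ Q := by
      intro hle
      refine hc ((map_mono (le_sup_left : OZ Q ≤ OZ Q ⊔ cj(y, OZ Q))).trans
        ((cj_of_norm ?_).le.trans (sup_le (OZ_le Q) hle)))
      refine (sup_le (le_normalizer_sup (hS.le.trans hl.Vn) ?_) ?_ :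
        P ⊔ zpowers y ≤ 𝐍(OZ Q ⊔ cj(y, OZ Q))) hm
      · rw [← map_conj_normalizer, ← cj_of_norm hyN]
        exact map_mono (hS.le.trans hl.Vn)
      · rw [zpowers_le, ← map_conj_eq_iff, Subgroup.map_sup, hyy _ hVP hl.Vn, sup_comm]
    have hl' := hl.map (f := (MulAut.conj y).toMonoidHom) (MulAut.conj y).injective
    have hS' := hS.conj y
    rw [cj_of_norm hyN] at hS'
    have h1 := hl'.VQ.trans (hl'.le_syl hS')
    have hc'' := hl'.crit_symm hl hS h1 hc'
    have hM : Mho Q = Mho (Q ⊓ cj(y, Q)) := by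
      refine le_antisymm (Mho_le_of fun k hk => ?_) (Mho_le_of fun k hk => ⟨k, hk.1, rfl⟩)
      obtain ⟨v, hv, e, he, rfl⟩ := hl.crit_decomp hl' hS hS' hVP h1 hc'' (hQP hk)
      have heQ : e ∈ Q := by simpa using mul_mem (inv_mem hv.1) hk
      refine ⟨e, ⟨heQ, he⟩, ?_⟩
      calc e * e = (v * v) * (e * e) := by rw [hv.2.2, one_mul]
        _ = v * (v * e) * e := by group
        _ = v * (e * v) * e := by rw [hv.2.1 e heQ]
        _ = v * e * (v * e) := by group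
    have hM0 := star (Mho Q) ((Mho_le Q).trans hQP) (hQn.trans (normalizer_le_normalizer_Mho Q))
      (hM ▸ normalizer_le_normalizer_Mho _ (hinf Q hQP hQn))
    have hsq := sq_of_Mho hM0
    have hQV : OZ Q = Q := le_antisymm (OZ_le Q) fun q hq => ⟨hq, comm_of_sq hsq hq, hsq q hq⟩
    have hQV₀ : OZ Q₀ = Q₀ := map_injective hf (by rw [map_OZ hf, ← hQ, hQV])
    rw [hQV₀] at hl₀
    rw [hQV] at hl
    obtain ⟨x, hx, hxQ⟩ := SetLike.not_le_iff_exists.mp hc'
    have hx2 := hl'.sq x hx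
    have hxP := h1 hx
    rw [hPT] at hxP
    obtain ⟨x, hxT, rfl⟩ := hxP
    have hZ' : ∀ {T' : Subgroup H}, IsSyl 2 T' ⊤ → ¬ Q₀ ⊓ 𝐂(T') ≤ center H := fun hT' hle =>
      hZ hT' fun v hv => hle ⟨hO'' hT' hv, hv.2.1⟩
    have hc2 : Nat.card ↥(Q₀ ⊓ center H) ≤ 2 := by
      have e1 : (Q₀ ⊓ center H).map H.subtype = Q ⊓ 𝐂(H) := by
        rw [Subgroup.map_inf _ _ _ hf, map_subtype_center, ← hQ, ← inf_assoc,
          inf_eq_left.mpr (hQP.trans hS.le)]
      rw [← card_map_subtype, e1]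
      have e2 : Q ⊓ 𝐂(H) ≤ OZ P := fun v hv =>
        ⟨hQP hv.1, centralizer_le_centralizer hS.le hv.2, hsq v hv.1⟩
      refine (hcard _ (OZ P) (inf_le_left.trans hQP) inf_le_right
        (map_conj_le_of_le e2 (normalizer_le_normalizer_OZ P hyN))).trans ?_
      obtain ⟨T', hT', hg⟩ := hl.gen hS
      have e3 : OZ P ≤ Q := fun v hv => hl.omega hS v hv.1 hv.2.1 hv.2.2
      refine le_trans ?_ (hl.idxV hT' ▸ relIndex_le_of_le_right (H := 𝐂(T')) e3 index_ne_zero_of_finite)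
      rw [← inf_relIndex_right 𝐂(T')]
      refine relIndex_le_of_le_left (fun v hv => ⟨e3 hv.2, ?_⟩) index_ne_zero_of_finite
      exact mem_cent_of_sup_zpowers (hg _ (h1 hx) hxQ) hv.1 (hv.2.2.1 _ (h1 hx))
    obtain ⟨r1, r2⟩ := h.caseB rfl hl₀ hT hxT (fun e => hxQ (mm.mpr e)) (Subtype.ext hx2) hZ' hc2
    exact ⟨Or.inr (hcardP ▸ r1), Or.inr r2⟩
  · obtain ⟨z, hz, hzQ⟩ := SetLike.not_le_iff_exists.mp hO'
    have hzP : (z : G) ∈ OZ P := by rw [hPT, ← map_OZ hf]; exact mm.mpr hz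
    have hM : Mho P = Mho Q := by
      refine le_antisymm (Mho_le_of fun k hk => ?_) (Mho_le_of fun k hk => ⟨k, hQP hk, rfl⟩)
      by_cases hkQ : k ∈ Q
      · exact ⟨k, hkQ, rfl⟩
      · refine ⟨k * z, mul_mem_of_relIndex_two hidx hk hzP.1 hkQ fun e => hzQ (mm.mp e), ?_⟩
        calc k * z * (k * z) = k * (z * k) * z := by group
          _ = k * k * (z * z) := by rw [← hzP.2.1 k hk]; group
          _ = k * k := by rw [hzP.2.2, mul_one]
    have hM0 := star (Mho P) (Mho_le P) (hM ▸ hQn.trans (normalizer_le_normalizer_Mho Q))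
      (normalizer_le_normalizer_Mho _ hyN)
    have hsq := sq_of_Mho hM0
    have hQc : Q₀ ≤ center H := by
      have := h.normal
      have := normal_centralizer' Q₀
      have e := h.eq_top_of_normal hT (K := 𝐂(Q₀)) (comm_of_sq fun k hk => Subtype.ext
        (hsq k (hQP (mm.mpr hk)))) hz.1 hzQ (centralizer_le_centralizer (h.le hT) hz.2.1)
      intro v hv
      exact mem_center_iff.mpr fun g => ((e ▸ mem_top g : g ∈ 𝐂(Q₀)) v hv).symm
    have hc2 : Nat.card Q₀ = 2 := by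
      have h1 := hcard Q P hQP ((map_mono hQc).trans (by rw [map_subtype_center]; exact inf_le_right))
        (map_conj_le_of_le hQP hyN)
      rw [hidx, hQ, card_map_subtype] at h1
      have h2 : ¬ Nat.card Q₀ ≤ 1 := fun e => hO (eq_bot_of_card_le _ e)
      omega
    obtain ⟨r1, r2⟩ := h.caseA hT (fun t ht => Subtype.ext (hsq t (hPT ▸ mm.mpr ht))) hQc hc2
    exact ⟨Or.inl (hcardP ▸ r1), Or.inl r2⟩

end Cfsg.Agent.Lib.Glaub
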