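/-
Control of transfer: structure of a minimal counterexample.
-/
import Cfsg.Agent.Lib.Glaub.KInfCor
import Cfsg.Agent.Lib.Glaub.WeakClosure
import Cfsg.Agent.Lib.Transfer.Focal

set_option autoImplicit false
set_option linter.unusedSectionVars false
set_option linter.style.haveILetI false

namespace Cfsg.Agent.Lib.Glaub

open Subgroup Cfsg.Agent.Lib.Core
open scoped commutatorElement

universe u

section
variable {G : Type*} [Group G]

theorem transfer_eq_prod_of_normal {M U : Subgroup G} [hU : U.Normal] (hUM : U ≤ M) [M.FiniteIndex]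
    [Fintype (G ⧸ M)] {B : Type*} [CommGroup B] (φ : M →* B) {y : G} (hy : y ∈ U) :
    MonoidHom.transfer φ y = ∏ q : G ⧸ M, φ ⟨q.out⁻¹ * y * q.out, hUM (hU.conj_mem' y hy _)⟩ := by
  rw [MonoidHom.transfer_def φ default, leftTransversals.diff]
  refine Finset.prod_congr (by congr 1; exact Subsingleton.elim _ _) fun q _ => ?_
  congr 1
  apply Subtype.ext
  have h1 : y⁻¹ • q = q := by
    rw [← q.out_eq']
    exact QuotientGroup.eq.mpr (by simpa [mul_assoc] using hUM (hU.conj_mem' y hy q.out))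
  have h2 : ∀ q : G ⧸ M, ((default : M.LeftTransversal).2.leftQuotientEquiv q : G) = q.out :=
    fun q => IsComplement.leftQuotientEquiv_apply Quotient.out_eq' q
  simp only [smul_apply_eq_smul_apply_inv_smul, h1, h2, smul_eq_mul, mul_assoc]

/-- The action on homomorphisms by precomposition. -/
def homAct {X B : Type*} [Group X] [CommGroup B] : MulAut X →* MulAut (X →* B) where
  toFun e := MulEquiv.monoidHomCongrLeft e
  map_one' := rfl
  map_mul' _ _ := rfl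

variable [Finite G] {p : ℕ} [hp : Fact p.Prime]

open scoped IsMulCommutative in
/-- The transfer argument: with a unique maximal subgroup `M` over `S` and an element acting
with small minimal polynomial on the chief factors in `O_p(G)`, `O_p(G) ∩ G' ≤ M'`. -/
theorem inf_commutator_le_of_unique_max {S M : Subgroup G} (hS : IsSyl p S ⊤) (hSM : S ≤ M)
    (hM : ∀ K, S ≤ K → K ≠ ⊤ → K ≤ M) {u : G} (huS : u ∈ S) (hu : u ∉ pCore p G)
    (hch : ∀ U V, IsChiefFactor U V → U ≤ pCore p G → iterCommutator U (zpowers u) (p - 1) ≤ V) :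
    pCore p G ⊓ ⁅(⊤ : Subgroup G), ⊤⁆ ≤ ⁅M, M⁆ := by
  classical
  by_contra hcon
  obtain ⟨U, hUP, ⟨hUn, hU⟩, hmin⟩ := exists_minimal_subgroup
    (H := pCore p G ⊓ ⁅(⊤ : Subgroup G), ⊤⁆)
    (P := fun U : Subgroup G => U.Normal ∧ ¬ U ≤ ⁅M, M⁆) ⟨inferInstance, hcon⟩
  obtain ⟨V, -, hUV⟩ := exists_chief_below (K := ⊥) (U := U)
    (bot_lt_iff_ne_bot.mpr fun h => hU (h ▸ bot_le))
  haveI := hUV.2.2.1
  have hV : V ≤ ⁅M, M⁆ := by
    by_contra h
    exact hUV.1.ne (hmin V ⟨hUV.2.2.1, h⟩ hUV.1.le)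
  have hUp : IsPGroup p U := pCore_isPGroup.to_le (hUP.trans inf_le_left)
  have hUM : U ≤ M := (hUP.trans inf_le_left).trans ((pCore_le_of_isSyl hS).trans hSM)
  set π := QuotientGroup.mk' V with hπ
  have hm := chief_minN hUV
  haveI := hm.normal
  haveI := hm.isMulCommutative (hUp.map _)
  haveI : Fintype (G ⧸ M) := Fintype.ofFinite _
  let ρ : U →* U.map π := π.subgroupMap U
  have hρs : Function.Surjective ρ := π.subgroupMap_surjective U
  have hρ : ∀ (g : G) (v : U), ρ ((MulAut.conjNormal g : MulAut U) v) =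
      (MulAut.conjNormal (π g) : MulAut (U.map π)) (ρ v) := by
    intro g v
    apply Subtype.ext
    show π (g * v * g⁻¹) = π g * π v * (π g)⁻¹
    simp
  have hof : ∀ x : M, Abelianization.of x = 1 ↔ (x : G) ∈ ⁅M, M⁆ := by
    intro x
    rw [← map_subtype_commutator]
    exact (QuotientGroup.eq_one_iff x).trans (mem_map_iff_mem M.subtype_injective).symm
  let lam : G → (U →* Abelianization M) := fun t =>
    Abelianization.of.comp ((inclusion hUM).comp (MulAut.conjNormal t⁻¹ : MulAut U).toMonoidHom)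
  have hlam : ∀ t, ρ.ker ≤ (lam t).ker := by
    intro t x hx
    have h1 : (x : G) ∈ V := (QuotientGroup.eq_one_iff _).mp (congrArg Subtype.val hx)
    exact (hof _).mpr (hV (hUV.2.2.1.conj_mem _ h1 t⁻¹))
  let Lam : G → (U.map π →* Abelianization M) := fun t => ρ.liftOfSurjective hρs ⟨lam t, hlam t⟩
  have hLam : ∀ t x, Lam t (ρ x) = lam t x := fun t x =>
    ρ.liftOfRightInverse_comp_apply _ _ ⟨lam t, hlam t⟩ x
  have hLam2 : ∀ t m, m ∈ M → Lam (t * m) = Lam t := by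
    intro t m hm
    ext y
    obtain ⟨x, rfl⟩ := hρs y
    rw [hLam, hLam]
    have : inclusion hUM ((MulAut.conjNormal (t * m)⁻¹ : MulAut U) x) =
        (⟨m, hm⟩ : M)⁻¹ * inclusion hUM ((MulAut.conjNormal t⁻¹ : MulAut U) x) * ⟨m, hm⟩ := by
      apply Subtype.ext
      show (t * m)⁻¹ * x * (t * m)⁻¹⁻¹ = m⁻¹ * (t⁻¹ * x * t⁻¹⁻¹) * m
      group
    show Abelianization.of (inclusion hUM ((MulAut.conjNormal (t * m)⁻¹ : MulAut U) x)) =
      Abelianization.of (inclusion hUM ((MulAut.conjNormal t⁻¹ : MulAut U) x))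
    rw [this, map_mul, map_mul, map_inv, mul_right_comm, inv_mul_cancel, one_mul]
  let F : G ⧸ M → (U.map π →* Abelianization M) := fun ω => Lam ω.out
  have hF : ∀ t : G, F (t : G ⧸ M) = Lam t := by
    intro t
    obtain ⟨m, hm⟩ := QuotientGroup.mk_out_eq_mul M t
    simp only [F]
    rw [hm, hLam2 _ _ m.2]
  let Φ : G →* MulAut (U.map π →* Abelianization M) :=
    homAct.comp ((MulAut.conjNormal (H := U.map π)).comp π)
  have hΦ : ∀ g f y, Φ g f y = f ((MulAut.conjNormal (π g⁻¹) : MulAut (U.map π)) y) := by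
    intro g f y
    rw [map_inv, map_inv]; rfl
  have key := prod_quotient_eq Φ hS hSM hM huS hu (fun f => by
    ext y
    have := prod_conjNormal_eq_one (u := π u⁻¹) (hm.pow_eq_one (hUp.map _)) (by
      rw [← MonoidHom.map_zpowers, ← map_iterCommutator, map_mk'_eq_bot_iff, zpowers_inv]
      exact hch U V hUV (hUP.trans inf_le_left)) y
    rw [MonoidHom.finsetProd_apply]
    simp only [← map_pow, hΦ]
    rw [← map_prod, MonoidHom.one_apply, ← map_one f, ← this]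
    simp only [← map_pow, inv_pow]) F (by
    intro s _ ω
    obtain ⟨t, rfl⟩ := QuotientGroup.mk_surjective ω
    show F ((s * t : G) : G ⧸ M) = _
    ext y
    obtain ⟨x, rfl⟩ := hρs y
    rw [hF, hF, hΦ, ← hρ, hLam, hLam]
    show Abelianization.of (inclusion hUM ((MulAut.conjNormal (s * t)⁻¹ : MulAut U) x)) =
      Abelianization.of (inclusion hUM ((MulAut.conjNormal t⁻¹ : MulAut U)
        ((MulAut.conjNormal s⁻¹ : MulAut U) x)))
    rw [mul_inv_rev, map_mul]; rfl)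
  apply hU
  intro y hy
  have h1 := congrArg (fun f => f (ρ ⟨y, hy⟩)) key
  rw [hF 1] at h1
  simp only [MonoidHom.finsetProd_apply, F, hLam] at h1
  have h2 : MonoidHom.transfer (Abelianization.of (G := M)) y = 1 :=
    Transfer.commutator_le_ker _ (hUP hy).2
  rw [transfer_eq_prod_of_normal hUM _ hy] at h2
  have h3 : ∏ q : G ⧸ M, lam q.out ⟨y, hy⟩ = 1 := by
    rw [← h2]
    refine Finset.prod_congr rfl fun q _ => congrArg Abelianization.of (Subtype.ext ?_)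
    show q.out⁻¹ * y * q.out⁻¹⁻¹ = q.out⁻¹ * y * q.out
    rw [inv_inv]
  rw [h3] at h1
  have h4 := (hof _).mp h1.symm
  have h5 : (1 : G)⁻¹ * y * (1 : G)⁻¹⁻¹ ∈ ⁅M, M⁆ := h4
  simpa using h5

end

section
variable {G : Type u} [Group G] [Finite G] {p : ℕ} [hp : Fact p.Prime]
  {𝓦 : Set (∀ (Q : Type u) [Group Q], Subgroup Q)}

/-- The family induced by `𝓦` controls transfer in `L` (for all Sylow subgroups). -/
def TFA (p : ℕ) (𝓦 : Set (∀ (Q : Type u) [Group Q], Subgroup Q)) {G : Type u} [Group G]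
    (L : Subgroup G) : Prop :=
  ∀ T, IsSyl p T L → T ⊓ ⁅L, L⁆ ≤ famTr (indFam 𝓦 G) L T

omit [Finite G] in
theorem famTr_indFam (H T : Subgroup G) : famTr (indFam 𝓦 G) H T =
    ⨆ W ∈ 𝓦, T ⊓ ⁅H ⊓ 𝐍(inducedFunctor W T), H ⊓ 𝐍(inducedFunctor W T)⁆ := by
  rw [famTr, indFam, iSup_image]

omit [Finite G] in
theorem famTr_mono (𝓦 : Set (Subgroup G → Subgroup G)) {H K : Subgroup G} (h : H ≤ K)
    (T : Subgroup G) : famTr 𝓦 H T ≤ famTr 𝓦 K T :=
  iSup₂_mono fun _ _ => inf_le_inf_left _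
    (commutator_mono (inf_le_inf_right _ h) (inf_le_inf_right _ h))

theorem map_famTr (h𝓦 : ∀ W ∈ 𝓦, IsCharPFunctor p W) {G' : Type u} [Group G']
    {f : G →* G'} (hf : Function.Injective f) (L : Subgroup G) {T : Subgroup G}
    (hT : IsPGroup p T) :
    (famTr (indFam 𝓦 G) L T).map f = famTr (indFam 𝓦 G') (L.map f) (T.map f) := by
  rw [famTr_indFam, famTr_indFam, Subgroup.map_iSup]
  refine iSup_congr fun W => ?_
  rw [Subgroup.map_iSup]
  refine iSup_congr fun hW => ?_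
  rw [map_inf_eq _ _ _ hf, map_commutator, map_inf_normalizer' hf,
    map_inducedFunctor_of_injective (h𝓦 W hW) hf hT]

theorem tfa_map_iff (h𝓦 : ∀ W ∈ 𝓦, IsCharPFunctor p W) {G' : Type u} [Group G']
    {f : G →* G'} (hf : Function.Injective f) {L : Subgroup G} :
    TFA p 𝓦 (L.map f) ↔ TFA p 𝓦 L := by
  constructor
  · intro h T hT
    rw [← map_le_map_iff_of_injective hf, map_famTr h𝓦 hf L hT.isPGroup, map_inf_eq _ _ _ hf,
      map_commutator]
    exact h _ (hT.map f)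
  · intro h T hT
    obtain ⟨T, -, rfl⟩ := exists_map_eq_of_le' hT.le
    have hT' := IsSyl.of_map_injective hf hT
    rw [← map_famTr h𝓦 hf L hT'.isPGroup, ← map_commutator, ← map_inf_eq _ _ _ hf]
    exact map_mono (h T hT')

theorem tfa_top_subgroup (h𝓦 : ∀ W ∈ 𝓦, IsCharPFunctor p W) {L : Subgroup G} :
    TFA p 𝓦 (⊤ : Subgroup L) ↔ TFA p 𝓦 L := by
  rw [← tfa_map_iff h𝓦 L.subtype_injective, ← MonoidHom.range_eq_map, range_subtype]

theorem tfa_of_equiv (h𝓦 : ∀ W ∈ 𝓦, IsCharPFunctor p W) {G' : Type u} [Group G'] (e : G ≃* G')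
    (h : TFA p 𝓦 (⊤ : Subgroup G)) : TFA p 𝓦 (⊤ : Subgroup G') := by
  rw [← map_top_of_surjective e.toMonoidHom e.surjective, tfa_map_iff h𝓦 e.injective]; exact h

theorem tfa_iff (h𝓦 : ∀ W ∈ 𝓦, IsCharPFunctor p W) {L : Subgroup G} :
    TFA p 𝓦 L ↔ FamilyControlsTransferIn p (indFam 𝓦 G) L := by
  rw [familyControlsTransferIn_iff]
  constructor
  · intro h
    obtain ⟨T, hT⟩ := exists_isSyl (p := p) L
    exact ⟨T, hT, h T hT⟩
  · rintro ⟨T, hT, h⟩ T' hT'
    exact famTr_transport (isCF_indFam h𝓦 L) hT hT' h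

theorem IsSyl.inf_sup_eq {S A O : Subgroup G} (hS : IsPGroup p S) (hA : IsSyl p (S ⊓ A) A)
    [O.Normal] (hO : ¬ p ∣ Nat.card O) : S ⊓ (A ⊔ O) = S ⊓ A := by
  refine (hA.trans le_sup_left ?_).eq_of_le (hS.to_le inf_le_left) (inf_le_inf_left _ le_sup_left)
    inf_le_right
  intro h
  have h1 := card_sup_mul_card_inf (H := A) (N := O) le_normalizer_of_normal
  rw [← card_mul_relIndex (le_sup_left : A ≤ A ⊔ O), mul_assoc] at h1
  exact hO ((Dvd.dvd.mul_right h _).trans (Nat.eq_of_mul_eq_mul_left Nat.card_pos h1).dvd)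

theorem tfa_of_quotient_coprime (h𝓦 : ∀ W ∈ 𝓦, IsCharPFunctor p W) {O : Subgroup G} [O.Normal]
    (hO : ¬ p ∣ Nat.card O) (h : TFA p 𝓦 (⊤ : Subgroup (G ⧸ O))) : TFA p 𝓦 (⊤ : Subgroup G) := by
  intro S hS
  let π := QuotientGroup.mk' O
  have hs : Function.Surjective π := QuotientGroup.mk'_surjective O
  have hk : π.ker = O := QuotientGroup.ker_mk' O
  have hSO : π.ker ⊓ S = ⊥ := by
    rw [hk, inf_comm]; exact inf_eq_bot_of_isPGroup_of_not_dvd hS.isPGroup hO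
  have hS' := hS.map π
  rw [map_top_of_surjective π hs] at hS'
  have hTS : famTr (indFam 𝓦 G) ⊤ S ≤ S := (famTr_le _ _ _).trans inf_le_left
  have h1 : famTr (indFam 𝓦 (G ⧸ O)) ⊤ (S.map π) ≤ (famTr (indFam 𝓦 G) ⊤ S).map π := by
    rw [famTr_indFam]
    refine iSup₂_le fun W hW => ?_
    have hWS : S ≤ 𝐍(inducedFunctor W S) :=
      (isCF_induced (h𝓦 W hW) ⊤).le_normalizer hS.isPGroup le_top
    have hca : CoprimeAct (inducedFunctor W S) π.ker := by
      rw [hk]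
      exact coprimeAct_of_isPGroup_left
        (hS.isPGroup.to_le (inducedFunctor_le S)) hO le_normalizer_of_normal
    rw [top_inf_eq, ← map_inducedFunctor (h𝓦 W hW) π hS.isPGroup hSO,
      ← CoprimeAct.map_normalizer π hs hca, ← map_commutator]
    rintro _ ⟨⟨s, hs, rfl⟩, h2⟩
    refine mem_map_of_mem π (le_famTr (𝓦 := indFam 𝓦 G) (W := inducedFunctor W) ⊤ S
      ⟨W, hW, rfl⟩ ?_)
    rw [top_inf_eq, ← IsSyl.inf_sup_eq hS.isPGroup ((hS.mono hWS le_top).inf_normal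
      (commutator_le_of_le_normalizer_left le_normalizer)
      (le_normalizer_commutator le_normalizer le_normalizer)) hO, ← hk, ← comap_map_eq]
    exact ⟨hs, h2⟩
  have h2 := (h _ hS').trans h1
  have h3 := IsSyl.inf_sup_eq (A := famTr (indFam 𝓦 G) ⊤ S) hS.isPGroup
    (by rw [inf_eq_right.mpr hTS]; exact isSyl_self (hS.isPGroup.to_le hTS)) hO
  rw [inf_eq_right.mpr hTS, ← hk, ← comap_map_eq] at h3
  rw [← h3]
  refine fun x hx => ⟨hx.1, h2 ⟨mem_map_of_mem π hx.1, ?_⟩⟩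
  rw [← map_top_of_surjective π hs, ← map_commutator]
  exact mem_map_of_mem π hx.2

/-- The structure of a minimal counterexample to control of transfer. -/
theorem tfa_core (h𝓦 : ∀ W ∈ 𝓦, IsCharPFunctor p W) {S : Subgroup G} (hS : IsSyl p S ⊤)
    (IH : ∀ (H : Type u) [Group H] [Finite H], IsSec H G → Nat.card H < Nat.card G →
      TFA p 𝓦 (⊤ : Subgroup H))
    (hG : ¬ S ⊓ ⁅(⊤ : Subgroup G), ⊤⁆ ≤ famTr (indFam 𝓦 G) ⊤ S) (hSn : 𝐍(S) ≠ ⊤) :
    𝐂(pCore p G) ≤ pCore p G ∧ 𝐍(famTr (indFam 𝓦 G) ⊤ S ⊓ pCore p G) ≠ ⊤ ∧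
      (∀ H, S ≤ H → H ≠ ⊤ → H ≤ 𝐍(famTr (indFam 𝓦 G) ⊤ S ⊓ pCore p G) ∧
        S ⊓ ⁅H, H⁆ ≤ famTr (indFam 𝓦 G) ⊤ S) ∧
      ¬ pCore p G ⊓ ⁅(⊤ : Subgroup G), ⊤⁆ ≤ famTr (indFam 𝓦 G) ⊤ S := by
  set T := famTr (indFam 𝓦 G) ⊤ S with hT
  set P := pCore p G with hP
  have hsub : ∀ L : Subgroup G, L ≠ ⊤ → TFA p 𝓦 L := fun L hL =>
    (tfa_top_subgroup h𝓦).mp (IH L (IsSec.subgroup L) (card_lt_of_ne_top hL))
  have ha : ∀ H, S ≤ H → H ≠ ⊤ → S ⊓ ⁅H, H⁆ ≤ T := fun H hSH hH =>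
    (hsub H hH S (hS.mono hSH le_top)).trans (famTr_mono _ le_top S)
  have hS1 : S ≠ ⊤ := fun h => hSn (top_le_iff.mp (h.ge.trans le_normalizer))
  have hS' : ⁅S, S⁆ ≤ T :=
    (le_inf (commutator_le_of_le_normalizer_left le_normalizer) le_rfl).trans (ha S le_rfl hS1)
  have hPS : P ≤ S := pCore_le_of_isSyl hS
  have hTG := famTr_le (indFam 𝓦 G) ⊤ S
  have hO : pPrimeCore p G = ⊥ := by
    by_contra hO
    exact hG (tfa_of_quotient_coprime h𝓦 pPrimeCore_not_dvd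
      (IH _ (IsSec.quotient _) (card_quotient_lt hO)) S hS)
  have hP1 : P ≠ ⊥ := by
    intro hP1
    refine hG (transfer_of_local hS (isCF_indFam h𝓦 ⊤) fun U hU hU1 hU2 => hsub _ ?_ _ hU2)
    rw [top_inf_eq]
    exact normalizer_ne_top_of_not_le (hS.isPGroup.to_le hU) fun h => hU1 (le_bot_iff.mp (hP1 ▸ h))
  have hSP : ¬ S ≤ P := fun h => hSn (by
    rw [le_antisymm h hPS]; exact top_le_iff.mp le_normalizer_of_normal)
  have h2 : ¬ P ⊓ ⁅(⊤ : Subgroup G), ⊤⁆ ≤ T := by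
    intro hcon
    let π := QuotientGroup.mk' P
    have hs : Function.Surjective π := QuotientGroup.mk'_surjective P
    have hk : π.ker = P := QuotientGroup.ker_mk' P
    have hS' := hS.map π
    rw [map_top_of_surjective π hs] at hS'
    have h1 : famTr (indFam 𝓦 (G ⧸ P)) ⊤ (S.map π) ≤ T.map π := by
      rw [famTr_indFam]
      refine iSup₂_le fun W hW => ?_
      have hcf := isCF_induced (h𝓦 W hW) (⊤ : Subgroup (G ⧸ P))
      have h2 : (inducedFunctor W (S.map π)).comap π ≤ S :=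
        (comap_mono (inducedFunctor_le _)).trans (comap_map_mk'_of_le hPS).le
      have h3 : ¬ (inducedFunctor W (S.map π)).comap π ≤ P := fun h =>
        hcf.ne_bot hS'.isPGroup (fun h' => hSP (map_mk'_eq_bot_iff.mp h'))
          (by rw [← map_comap_mk' (inducedFunctor W (S.map π)), map_mk'_eq_bot_iff]; exact h)
      have h4 := ha _ (by
        rw [← comap_normalizer_eq_of_surjective _ hs, ← map_le_iff_le_comap]
        exact hcf.le_normalizer hS'.isPGroup le_top)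
        (normalizer_ne_top_of_not_le (hS.isPGroup.to_le h2) h3)
      rw [top_inf_eq, ← map_comap_eq_self_of_surjective hs 𝐍(inducedFunctor W (S.map π)),
        comap_normalizer_eq_of_surjective _ hs, ← map_commutator]
      rintro _ ⟨⟨s, hs, rfl⟩, x, hx, h5⟩
      refine h5 ▸ mem_map_of_mem π (h4 ⟨?_, hx⟩)
      have h6 : s⁻¹ * x ∈ P := QuotientGroup.eq.mp h5.symm
      simpa using S.mul_mem hs (hPS h6)
    have h3 := (IH _ (IsSec.quotient P) (card_quotient_lt hP1) _ hS').trans h1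
    refine hG fun x hx => ?_
    obtain ⟨t, ht, h4⟩ := h3 (x := π x) ⟨mem_map_of_mem π hx.1, by
      rw [← map_top_of_surjective π hs, ← map_commutator]
      exact mem_map_of_mem π hx.2⟩
    have h6 : t⁻¹ * x ∈ P := QuotientGroup.eq.mp h4
    simpa using T.mul_mem ht (hcon ⟨h6, Subgroup.mul_mem _ (Subgroup.inv_mem _ (hTG ht).2) hx.2⟩)
  have hb : ∀ H, S ≤ H → H ≠ ⊤ → ⁅P, H⁆ ≤ T ⊓ P := fun H hSH hH =>
    le_inf ((le_inf ((commutator_le_left _ _).trans hPS)
      (commutator_mono (hPS.trans hSH) le_rfl)).trans (ha H hSH hH)) (commutator_le_left _ _)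
  have hc : ∀ H, S ≤ H → H ≠ ⊤ → H ≤ 𝐍(T ⊓ P) := fun H hSH hH =>
    le_normalizer_iff_commutator_le_left.mpr
      ((commutator_mono inf_le_right le_rfl).trans (hb H hSH hH))
  have hM : 𝐍(T ⊓ P) ≠ ⊤ := by
    intro hM
    haveI := normal_of_le_normalizer_top hM.ge
    let π := QuotientGroup.mk' (T ⊓ P)
    have hs : Function.Surjective π := QuotientGroup.mk'_surjective _
    have hCn : (cFac P (T ⊓ P)).Normal := cFac_normal _ _
    have hNC : 𝐍(S) ≤ cFac P (T ⊓ P) := le_cFac_iff.mpr (hb _ le_normalizer hSn)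
    have hC : cFac P (T ⊓ P) = ⊤ := by
      rw [← (hS.mono (le_normalizer.trans hNC) le_top).frattini_sup le_top le_normalizer_of_normal,
        top_inf_eq, sup_eq_left.mpr hNC]
    have hS' := hS.map π
    rw [map_top_of_surjective π hs] at hS'
    obtain ⟨S₀, hS₀⟩ := hS'.exists_sylow_top
    have h3 := Transfer.hall_inf_commutator_inf_center_le S₀.card_coprime_index
    rw [hS₀, ← map_commutator] at h3
    refine h2 fun x hx => ?_
    obtain ⟨t, ht, h4⟩ := h3 (x := π x) ⟨⟨mem_map_of_mem π (hPS hx.1), by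
      rw [_root_.commutator_def, ← map_top_of_surjective π hs, ← map_commutator]
      exact mem_map_of_mem π hx.2⟩, mem_center_iff.mpr fun g => by
      obtain ⟨g, rfl⟩ := hs g
      have : g ∈ cFac P (T ⊓ P) := hC ▸ mem_top g
      exact (this _ (mem_map_of_mem π hx.1)).symm⟩
    have h6 : t⁻¹ * x ∈ T ⊓ P := QuotientGroup.eq.mp h4
    simpa using T.mul_mem (‹⁅S, S⁆ ≤ T› ht) h6.1
  refine ⟨centralizer_le_of_pPrimeCore_eq_bot hS hO (inf_le_pCore_of_unique_max hS hM hc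
    ((centralizer_le_centralizer inf_le_right).trans (centralizer_le_normalizer _))), hM,
    fun H h1 h2 => ⟨hc H h1 h2, ha H h1 h2⟩, h2⟩

theorem tfa_step (h𝓦 : ∀ W ∈ 𝓦, IsCharPFunctor p W)
    (hyp : 𝐂(pCore p G) ≤ pCore p G → TFA p 𝓦 (⊤ : Subgroup G))
    (IH : ∀ (H : Type u) [Group H] [Finite H], IsSec H G → Nat.card H < Nat.card G →
      TFA p 𝓦 (⊤ : Subgroup H)) : TFA p 𝓦 (⊤ : Subgroup G) := by
  by_cases hO : pPrimeCore p G = ⊥
  swap
  · exact tfa_of_quotient_coprime h𝓦 pPrimeCore_not_dvd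
      (IH _ (IsSec.quotient _) (card_quotient_lt hO))
  intro S hS
  by_contra hG
  refine hG (hyp ?_ S hS)
  by_cases hSn : 𝐍(S) = ⊤
  · haveI := normal_of_le_normalizer_top hSn.ge
    exact centralizer_le_of_pPrimeCore_eq_bot hS hO (inf_le_left.trans (le_pCore hS.isPGroup))
  · exact (tfa_core h𝓦 hS IH hG hSn).1

theorem tfa_of_sections (h𝓦 : ∀ W ∈ 𝓦, IsCharPFunctor p W)
    (hyp : ∀ (K R : Subgroup G) [(R.subgroupOf K).Normal],
      𝐂(pCore p (K ⧸ R.subgroupOf K)) ≤ pCore p (K ⧸ R.subgroupOf K) →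
        TFA p 𝓦 (⊤ : Subgroup (K ⧸ R.subgroupOf K)))
    (H : Type u) [Group H] [Finite H] (hH : IsSec H G) : TFA p 𝓦 (⊤ : Subgroup H) :=
  section_induction (Hyp := fun H _ => 𝐂(pCore p H) ≤ pCore p H → TFA p 𝓦 (⊤ : Subgroup H))
    (Concl := fun H _ => TFA p 𝓦 (⊤ : Subgroup H)) (fun _ _ _ _ _ e h => tfa_of_equiv h𝓦 e h) hyp
    (fun _ _ _ _ h IH => tfa_step h𝓦 h IH) H hH

theorem normalizer_ne_top_of_not_tfa (h𝓦 : ∀ W ∈ 𝓦, IsCharPFunctor p W) {W} (hW : W ∈ 𝓦)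
    {S : Subgroup G} (hS : IsSyl p S ⊤)
    (hG : ¬ S ⊓ ⁅(⊤ : Subgroup G), ⊤⁆ ≤ famTr (indFam 𝓦 G) ⊤ S) :
    𝐍(inducedFunctor W S) ≠ ⊤ ∧ 𝐍(S) ≠ ⊤ := by
  have h1 : 𝐍(inducedFunctor W S) ≠ ⊤ := fun h => hG (by
    have := le_famTr (𝓦 := indFam 𝓦 G) (W := inducedFunctor W) ⊤ S ⟨W, hW, rfl⟩
    rwa [h, top_inf_eq] at this)
  refine ⟨h1, fun h => h1 (top_le_iff.mp fun g _ => map_conj_eq_iff.mp ?_)⟩
  rw [← (isCF_induced (h𝓦 W hW) ⊤).conj hS.isPGroup g (mem_top g),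
    map_conj_eq_iff.mpr (h ▸ mem_top g)]

/-- In a minimal counterexample no element of `S` outside `O_p(G)` has small minimal polynomial on
all chief factors inside `O_p(G)`. -/
theorem tfa_core_chief (h𝓦 : ∀ W ∈ 𝓦, IsCharPFunctor p W) {S : Subgroup G} (hS : IsSyl p S ⊤)
    (IH : ∀ (H : Type u) [Group H] [Finite H], IsSec H G → Nat.card H < Nat.card G →
      TFA p 𝓦 (⊤ : Subgroup H))
    (hG : ¬ S ⊓ ⁅(⊤ : Subgroup G), ⊤⁆ ≤ famTr (indFam 𝓦 G) ⊤ S) (hSn : 𝐍(S) ≠ ⊤)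
    {u : G} (huS : u ∈ S) (hu : u ∉ pCore p G) :
    ∃ U V, IsChiefFactor U V ∧ U ≤ pCore p G ∧ ¬ iterCommutator U (zpowers u) (p - 1) ≤ V := by
  by_contra hcon
  push Not at hcon
  obtain ⟨-, h1, h2, h3⟩ := tfa_core h𝓦 hS IH hG hSn
  have hS1 : S ≠ ⊤ := fun h => hSn (top_le_iff.mp (h.ge.trans le_normalizer))
  have hSM := (h2 S le_rfl hS1).1
  exact h3 ((le_inf (inf_le_left.trans (pCore_le_of_isSyl hS)) (inf_commutator_le_of_unique_max hS
    hSM (fun K a b => (h2 K a b).1) huS hu hcon)).trans (h2 _ hSM h1).2)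

theorem famTr_indFam_singleton (W : ∀ (Q : Type u) [Group Q], Subgroup Q) (H T : Subgroup G) :
    famTr (indFam {W} G) H T =
      T ⊓ ⁅H ⊓ 𝐍(inducedFunctor W T), H ⊓ 𝐍(inducedFunctor W T)⁆ := by
  rw [indFam, Set.image_singleton, famTr_singleton]

theorem tfa_singleton_iff {W : ∀ (Q : Type u) [Group Q], Subgroup Q} (hW : IsCharPFunctor p W)
    {L : Subgroup G} : TFA p {W} L ↔ ControlsTransferIn p (inducedFunctor W) L := by
  rw [tfa_iff (by rintro _ rfl; exact hW), familyControlsTransferIn_iff, controlsTransferIn_iff]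
  simp only [famTr_indFam_singleton, le_inf_iff, inf_le_left, true_and]

/-- Glauberman's criterion for control of transfer by an Engel-type condition. -/
theorem tfa_of_engel {W : ∀ (Q : Type u) [Group Q], Subgroup Q} (hW : IsCharPFunctor p W)
    (hloc : ∀ (K R : Subgroup G) [(R.subgroupOf K).Normal],
      𝐂(pCore p (K ⧸ R.subgroupOf K)) ≤ pCore p (K ⧸ R.subgroupOf K) →
      ∀ T : Sylow p (K ⧸ R.subgroupOf K),
        ¬ (inducedFunctor W (T : Subgroup (K ⧸ R.subgroupOf K))).Normal →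
        ∃ g ∈ (T : Subgroup (K ⧸ R.subgroupOf K)), g ∉ pCore p (K ⧸ R.subgroupOf K) ∧
          ∀ U V, IsChiefFactor U V → U ≤ pCore p (K ⧸ R.subgroupOf K) →
            iterCommutator U (zpowers g) (p - 1) ≤ V)
    (H : Type u) [Group H] [Finite H] (hH : IsSec H G) : TFA p {W} (⊤ : Subgroup H) := by
  have h𝓦 : ∀ W' ∈ ({W} : Set (∀ (Q : Type u) [Group Q], Subgroup Q)), IsCharPFunctor p W' := by
    rintro _ rfl; exact hW
  refine section_induction (Hyp := fun H _ => 𝐂(pCore p H) ≤ pCore p H → ∀ T : Sylow p H,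
        ¬ (inducedFunctor W (T : Subgroup H)).Normal →
        ∃ g ∈ (T : Subgroup H), g ∉ pCore p H ∧ ∀ U V, IsChiefFactor U V → U ≤ pCore p H →
            iterCommutator U (zpowers g) (p - 1) ≤ V)
    (Concl := fun H _ => TFA p {W} (⊤ : Subgroup H)) (fun _ _ _ _ _ e h => tfa_of_equiv h𝓦 e h)
    hloc (fun H _ _ _ h IH S hS => ?_) H hH
  by_contra hG
  obtain ⟨h1, h2⟩ := normalizer_ne_top_of_not_tfa h𝓦 rfl hS hG
  obtain ⟨S, rfl⟩ := hS.exists_sylow_top
  obtain ⟨g, hg1, hg2, hg3⟩ := h (tfa_core h𝓦 hS IH hG h2).1 S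
    fun hn => h1 (top_le_iff.mp le_normalizer_of_normal)
  obtain ⟨U, V, a, b, c⟩ := tfa_core_chief h𝓦 hS IH hG h2 hg1 hg2
  exact c (hg3 U V a b)

theorem tfa_kInfLower (hp5 : 5 ≤ p) : TFA p {kInfLower} (⊤ : Subgroup G) :=
  tfa_of_engel isCharPFunctor_kInfLower (fun K R _ _ T hT => by
    rw [inducedFunctor_kInfLower] at hT
    obtain ⟨g, h1, h2, h3, -⟩ := exists_kInf_element (isSyl_sylow T) (Or.inl hT)
    exact ⟨g, h1, h2, fun U V a b => iterCommutator_le_of_le (by omega) (h3 U V a b)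
      (by haveI := a.2.2.1; exact le_normalizer_of_normal)⟩)
    G IsSec.refl

theorem tfa_kInfUpper (hp5 : 5 ≤ p) : TFA p {kInfUpper} (⊤ : Subgroup G) :=
  tfa_of_engel isCharPFunctor_kInfUpper (fun K R _ _ T hT => by
    rw [inducedFunctor_kInfUpper] at hT
    obtain ⟨g, h1, h2, h3, -⟩ := exists_kInf_element (isSyl_sylow T) (Or.inr hT)
    exact ⟨g, h1, h2, fun U V a b => iterCommutator_le_of_le (by omega) (h3 U V a b)
      (by haveI := a.2.2.1; exact le_normalizer_of_normal)⟩)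
    G IsSec.refl

theorem TFA.eq {W : ∀ (Q : Type u) [Group Q], Subgroup Q} (h : TFA p {W} (⊤ : Subgroup G))
    {S : Subgroup G} (hS : IsSyl p S ⊤) :
    S ⊓ commutator G = S ⊓ ⁅𝐍(inducedFunctor W S), 𝐍(inducedFunctor W S)⁆ := by
  refine le_antisymm ?_ (inf_le_inf_left _ (commutator_mono le_top le_top))
  have := h S hS
  rwa [famTr_indFam_singleton, top_inf_eq] at this

end

end Cfsg.Agent.Lib.Glaub
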